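import Cfsg.Agent.ZJFive.Config

/-!
Thompson's criterion for `p ≥ 5`: if the normalizer of `J(P)` has a normal `p`-complement then so does `G`.
-/

set_option autoImplicit false
set_option linter.unusedSectionVars false
set_option linter.style.haveILetI false
set_option maxHeartbeats 800000

namespace CfsgLib.ZJFive

open scoped commutatorElement Pointwise
open CfsgLib.ZJ (maxGood J J_le J_map J_eq_of_le J_ne_bot normalizer_le_normalizer_J pow_dvd_of_subgroup
  hasNormalPComplement_map hasNormalPComplement_of_map_le hasNormalPComplement_of_quotient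
  hasNormalPComplement_top_iff isPSolvable_of_quotient center_inf_ne_bot le_normalizer_centerInf
  card_sup_mul_card_inf_of_le_normalizer)

universe u

theorem hasNormalPComplement_of_normalizer_J {p : ℕ} [hp : Fact p.Prime] (hp5 : 5 ≤ p) :
    ∀ (n : ℕ) (G : Type u) [Group G] [Finite G], Nat.card G = n → ∀ P : Sylow p G,
      Cfsg.HasNormalPComplement p (Subgroup.normalizer (J p false (P : Subgroup G) : Set G)) →
      Cfsg.HasNormalPComplement p G := by
  intro n
  induction n using Nat.strong_induction_on with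
  | _ n ih =>
  intro G _ _ hcard P hN
  by_contra hG
  -- the hypotheses hold for every Sylow subgroup
  have hyp : ∀ S : Sylow p G,
      Cfsg.HasNormalPComplement p (Subgroup.normalizer (J p false (S : Subgroup G) : Set G)) := by
    intro S
    obtain ⟨g, hg⟩ := MulAction.exists_smul_eq G S P
    set c := (MulAut.conj g).toMonoidHom with hc
    have hci : Function.Injective c := (MulAut.conj g).injective
    have hP : (S : Subgroup G).map c = (P : Subgroup G) := by
      rw [← hg, Sylow.coe_subgroup_smul]; rfl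
    refine hasNormalPComplement_of_map_le c hci ?_ hN
    refine (Subgroup.le_normalizer_map _).trans ?_
    rw [← J_map c (fun x _ hx => hci (hx.trans (map_one c).symm)), hP]
  -- proper subgroups
  have hsubH : ∀ (N : Subgroup G), N ≠ ⊤ → ∀ S' : Sylow p N,
      Cfsg.HasNormalPComplement p (Subgroup.normalizer
        (J p false ((S' : Subgroup N).map N.subtype) : Set G)) →
      Cfsg.HasNormalPComplement p N := by
    intro N hNt S' h1
    refine ih (Nat.card N) ?_ N rfl S' ?_
    · rw [← hcard]
      exact lt_of_le_of_ne (Subgroup.card_le_card_group N) fun e => hNt (Subgroup.eq_top_of_card_eq N e)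
    · refine hasNormalPComplement_of_map_le N.subtype N.subtype_injective ?_ h1
      refine (Subgroup.le_normalizer_map _).trans ?_
      rw [← J_map N.subtype (fun x _ hx => N.subtype_injective (hx.trans (map_one _).symm))]
  have hsubP : ∀ (N : Subgroup G) (S : Sylow p G), (S : Subgroup G) ≤ N → N ≠ ⊤ →
      Cfsg.HasNormalPComplement p N := by
    intro N S hSN hNt
    have he : ((S.subtype hSN : Sylow p N) : Subgroup N).map N.subtype = (S : Subgroup G) := by
      rw [Sylow.coe_subtype, Subgroup.map_subgroupOf_eq_of_le hSN]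
    exact hsubH N hNt (S.subtype hSN) (by rw [he]; exact hyp S)
  -- Step 1
  have hO : Cfsg.pPrimeCore p G = ⊥ := by
    by_contra hO
    set O := Cfsg.pPrimeCore p G with hOdef
    apply hG
    refine hasNormalPComplement_of_quotient O (CfsgLib.PCore.pPrimeCore_coprime p G) ?_
    have hlt : Nat.card (G ⧸ O) < n := by
      rw [← hcard, Subgroup.card_eq_card_quotient_mul_card_subgroup O]
      exact lt_mul_right Nat.card_pos
        (Subgroup.one_lt_card_iff_ne_bot O |>.2 hO)
    set π := QuotientGroup.mk' O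
    have hinj : ∀ x ∈ (P : Subgroup G), π x = 1 → x = 1 := by
      intro x hx h1
      have hx' : x ∈ O := (QuotientGroup.eq_one_iff x).1 h1
      have := CfsgLib.PCore.inf_eq_bot_of_isPGroup_of_coprime P.2 (CfsgLib.PCore.pPrimeCore_coprime p G)
      exact Subgroup.mem_bot.1 (this ▸ (⟨hx, hx'⟩ : x ∈ (P : Subgroup G) ⊓ O))
    have hPb : ((P.mapSurjective (QuotientGroup.mk'_surjective O)) : Subgroup (G ⧸ O)) = (P : Subgroup G).map π :=
      Sylow.coe_mapSurjective _ _
    refine ih _ hlt (G ⧸ O) rfl (P.mapSurjective (QuotientGroup.mk'_surjective O)) ?_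
    rw [hPb, J_map π hinj, CfsgLib.PCore.normalizer_map_eq O (CfsgLib.PCore.pPrimeCore_coprime p G) _
      (P.2.to_le (J_le _))]
    exact hasNormalPComplement_map π hN
  -- Step 2
  set m : Subgroup G → ℕ := fun H =>
    (Nat.card (Subgroup.normalizer (H : Set G))).factorization p * (Nat.card G + 1) + Nat.card H with hm
  set Bad : Set (Subgroup G) := {H | IsPGroup p H ∧ H ≠ ⊥ ∧
    ¬ Cfsg.HasNormalPComplement p (Subgroup.normalizer (H : Set G))} with hBad
  have hBne : Bad.Nonempty := by
    have h1 : ¬ CfsgLib.Transfer.LocallyTrivial p G := fun h =>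
      hG (CfsgLib.Transfer.frobenius_normal_complement h)
    simp only [CfsgLib.Transfer.LocallyTrivial, not_forall] at h1
    obtain ⟨Q, hQ, g, hg, ho, hgc⟩ := h1
    refine ⟨Q, hQ, ?_, fun h => hgc ?_⟩
    · rintro rfl
      exact hgc (Subgroup.mem_centralizer_iff.2 fun x hx => by simp [Subgroup.mem_bot.1 hx])
    · have h2 := CfsgLib.Transfer.locallyTrivial_of_hasNormalPComplement h
        (Q.subgroupOf (Subgroup.normalizer (Q : Set G))) hQ.comap_subtype ⟨g, hg⟩
        ((haveI : (Q.subgroupOf (Subgroup.normalizer (Q : Set G))).Normal := Subgroup.normal_in_normalizer; Subgroup.normalizer_eq_top (H := Q.subgroupOf (Subgroup.normalizer (Q : Set G)))).ge (Subgroup.mem_top _))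
        (by rwa [Subgroup.orderOf_mk])
      exact Subgroup.mem_centralizer_iff.2 fun q hq => congrArg Subtype.val
        (Subgroup.mem_centralizer_iff.1 h2 ⟨q, Subgroup.le_normalizer hq⟩ hq)
  obtain ⟨K₀, hK₀, hmax⟩ := Set.exists_max_image Bad m (Set.toFinite _) hBne
  have hbig : ∀ X : Subgroup G, IsPGroup p X → X ≠ ⊥ → m K₀ < m X →
      Cfsg.HasNormalPComplement p (Subgroup.normalizer (X : Set G)) := fun X h1 h2 h3 => by
    by_contra h4
    exact (hmax X ⟨h1, h2, h4⟩).not_gt h3
  have hK₀n : Subgroup.normalizer (K₀ : Set G) = ⊤ := by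
    by_contra hNt
    set N := Subgroup.normalizer (K₀ : Set G) with hNdef
    obtain ⟨S'⟩ : Nonempty (Sylow p N) := inferInstance
    set S := (S' : Subgroup N).map N.subtype with hSdef
    have hSp : IsPGroup p S := S'.2.map _
    obtain ⟨P₁, hP₁⟩ := hSp.exists_le_sylow
    by_cases hSP : S = (P₁ : Subgroup G)
    · exact hK₀.2.2 (hsubP N P₁ (hSP ▸ Subgroup.map_subtype_le _) hNt)
    have hlt : S < (P₁ : Subgroup G) := lt_of_le_of_ne hP₁ hSP
    have hgt := CfsgLib.Transfer.inf_normalizer_gt P₁ hlt
    set T := Subgroup.normalizer (S : Set G) ⊓ (P₁ : Subgroup G) with hT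
    have hScard : Nat.card S = p ^ (Nat.card N).factorization p := by
      rw [hSdef, Subgroup.card_map_of_injective N.subtype_injective, Sylow.card_eq_multiplicity]
    obtain ⟨t, ht⟩ := IsPGroup.iff_card.1 (P₁.2.to_le (inf_le_right : T ≤ (P₁ : Subgroup G)))
    have hcTS : Nat.card S < Nat.card T :=
      lt_of_le_of_ne (Subgroup.card_le_of_le hgt.le) fun e =>
        hgt.ne (Subgroup.eq_of_le_of_card_ge hgt.le e.ge)
    have htgt : (Nat.card N).factorization p < t := by
      rw [hScard, ht] at hcTS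
      exact (Nat.pow_lt_pow_iff_right hp.out.one_lt).1 hcTS
    have hS0 : S ≠ ⊥ := by
      intro h0
      have h1 : K₀.subgroupOf N ≤ (S' : Subgroup N) := by
        obtain ⟨Q, hQ⟩ := (hK₀.1.comap_subtype : IsPGroup p (K₀.subgroupOf N)).exists_le_sylow
        obtain ⟨g, hg⟩ := MulAction.exists_smul_eq N Q S'
        haveI : (K₀.subgroupOf N).Normal := Subgroup.normal_in_normalizer
        intro x hx
        rw [← hg, Sylow.coe_subgroup_smul, Subgroup.mem_pointwise_smul_iff_inv_smul_mem]
        refine hQ ?_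
        have := Subgroup.Normal.conj_mem (inferInstance : (K₀.subgroupOf N).Normal) x hx g⁻¹
        simpa [MulAut.smul_def, mul_assoc] using this
      apply hK₀.2.1
      rw [eq_bot_iff, ← h0]
      intro x hx
      exact ⟨⟨x, Subgroup.le_normalizer hx⟩, h1 hx, rfl⟩
    have hX : ∀ X : Subgroup G, IsPGroup p X → X ≠ ⊥ → T ≤ Subgroup.normalizer (X : Set G) →
        Cfsg.HasNormalPComplement p (Subgroup.normalizer (X : Set G)) := by
      intro X h1 h2 h3
      refine hbig X h1 h2 ?_
      have h4 := pow_dvd_of_subgroup (P₁.2.to_le inf_le_right) h3 ht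
      have h5 : Nat.card K₀ ≤ Nat.card G := Subgroup.card_le_card_group K₀
      simp only [hm]
      calc (Nat.card N).factorization p * (Nat.card G + 1) + Nat.card K₀
          < ((Nat.card N).factorization p + 1) * (Nat.card G + 1) := by rw [Nat.add_mul, one_mul]; omega
        _ ≤ (Nat.card (Subgroup.normalizer (X : Set G))).factorization p * (Nat.card G + 1) :=
            Nat.mul_le_mul_right _ (by omega)
        _ ≤ _ := Nat.le_add_right _ _
    have hTS : T ≤ Subgroup.normalizer (S : Set G) := inf_le_left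
    exact hK₀.2.2 (hsubH N hNt S' (hX _ (hSp.to_le (J_le _)) (J_ne_bot hSp hS0)
      (hTS.trans (normalizer_le_normalizer_J S))))
  set K := Cfsg.pCore p G with hKdef
  have hK₀norm : K₀.Normal := Subgroup.normalizer_eq_top_iff.1 hK₀n
  have hKne : K ≠ ⊥ := fun h => hK₀.2.1 (le_bot_iff.1 (h ▸ CfsgLib.PCore.le_pCore hK₀norm hK₀.1))
  haveI hKnorm : K.Normal := Cfsg.pCore_normal p G
  have hKp : IsPGroup p K := CfsgLib.PCore.isPGroup_pCore p G
  have hKP : K ≤ (P : Subgroup G) := CfsgLib.PCore.pCore_le_sylow P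
  have hJK : ¬ J p false (P : Subgroup G) ≤ K := by
    intro h
    apply hG
    rw [← hasNormalPComplement_top_iff]
    refine hasNormalPComplement_of_map_le (MonoidHom.id G) Function.injective_id ?_ hN
    rw [← J_eq_of_le h hKP, Subgroup.map_id]
    exact le_trans (by rw [Subgroup.normalizer_eq_top]) (normalizer_le_normalizer_J K)
  -- Step 3: the quotient
  set π := QuotientGroup.mk' K with hπ
  have hquot : Cfsg.HasNormalPComplement p (G ⧸ K) := by
    set Pb := P.mapSurjective (QuotientGroup.mk'_surjective K) with hPbdef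
    have hPb : (Pb : Subgroup (G ⧸ K)) = (P : Subgroup G).map π := Sylow.coe_mapSurjective _ _
    have hPb0 : (Pb : Subgroup (G ⧸ K)) ≠ ⊥ := fun h => by
      rw [hPb, Subgroup.map_eq_bot_iff, QuotientGroup.ker_mk'] at h
      exact hJK ((J_le _).trans h)
    have hX : ∀ Xb : Subgroup (G ⧸ K), Xb ≤ (Pb : Subgroup (G ⧸ K)) → Xb ≠ ⊥ →
        (Pb : Subgroup (G ⧸ K)) ≤ Subgroup.normalizer (Xb : Set (G ⧸ K)) →
        Cfsg.HasNormalPComplement p (Subgroup.normalizer (Xb : Set (G ⧸ K))) := by
      intro Xb h1 h2 h3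
      set X := Xb.comap π with hXdef
      have hKX : K ≤ X := fun x hx => by
        rw [hXdef, Subgroup.mem_comap, hπ, QuotientGroup.mk'_apply, (QuotientGroup.eq_one_iff x).2 hx]
        exact one_mem _
      have hXP : X ≤ (P : Subgroup G) := by
        refine (Subgroup.comap_mono h1).trans ?_
        rw [hPb, Subgroup.comap_map_eq, QuotientGroup.ker_mk', sup_eq_left.2 hKP]
      have hKlt : K < X := lt_of_le_of_ne hKX fun e => h2 (by
        rw [← Subgroup.map_comap_eq_self_of_surjective (QuotientGroup.mk'_surjective K) Xb, ← hXdef, ← e,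
          QuotientGroup.map_mk'_self])
      have hn : Subgroup.normalizer (X : Set G) = (Subgroup.normalizer (Xb : Set (G ⧸ K))).comap π :=
        (Subgroup.comap_normalizer_eq_of_surjective Xb (QuotientGroup.mk'_surjective K)).symm
      have hPX : (P : Subgroup G) ≤ Subgroup.normalizer (X : Set G) := by
        rw [hn, ← Subgroup.map_le_iff_le_comap, ← hPb]; exact h3
      have hmX : m K₀ < m X := by
        have h5 : (Nat.card (Subgroup.normalizer (K₀ : Set G))).factorization p ≤
            (Nat.card (Subgroup.normalizer (X : Set G))).factorization p :=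
          pow_dvd_of_subgroup P.2 hPX (by rw [Sylow.card_eq_multiplicity, hK₀n, Subgroup.card_top])
        have h6 : Nat.card K₀ < Nat.card X :=
          lt_of_le_of_lt (Subgroup.card_le_of_le (CfsgLib.PCore.le_pCore hK₀norm hK₀.1))
            (lt_of_le_of_ne (Subgroup.card_le_of_le hKX) fun e =>
              hKlt.ne (Subgroup.eq_of_le_of_card_ge hKX e.ge))
        simp only [hm]
        have := Nat.mul_le_mul_right (Nat.card G + 1) h5
        omega
      have hne : X ≠ ⊥ := fun h => hKlt.not_ge (h ▸ bot_le)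
      have h7 := hasNormalPComplement_map π (hbig X (P.2.to_le hXP) hne hmX)
      rwa [hn, Subgroup.map_comap_eq_self_of_surjective (QuotientGroup.mk'_surjective K)] at h7
    have hlt : Nat.card (G ⧸ K) < n := by
      rw [← hcard, Subgroup.card_eq_card_quotient_mul_card_subgroup K]
      exact lt_mul_right Nat.card_pos (Subgroup.one_lt_card_iff_ne_bot K |>.2 hKne)
    exact ih _ hlt (G ⧸ K) rfl Pb
      (hX _ (J_le _) (J_ne_bot Pb.2 hPb0) (Subgroup.le_normalizer.trans (normalizer_le_normalizer_J _)))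
  have hCK : Subgroup.centralizer (K : Set G) ≤ K :=
    CfsgLib.PCore.hall_higman (isPSolvable_of_quotient hKp hquot) hO
  haveI hRn' : (Cfsg.pResidual p (G ⧸ K)).Normal := CfsgLib.Transfer.pResidual_normal
  set R := Cfsg.pResidual p (G ⧸ K) with hR
  haveI hRn : R.Normal := CfsgLib.Transfer.pResidual_normal
  set Pb := P.mapSurjective (QuotientGroup.mk'_surjective K) with hPbdef
  have hPb : (Pb : Subgroup (G ⧸ K)) = (P : Subgroup G).map π := Sylow.coe_mapSurjective _ _
  have hRp : (Nat.card R).Coprime p :=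
    (hp.out.coprime_iff_not_dvd.2 (CfsgLib.Transfer.hasNormalPComplement_iff.1 hquot)).symm
  have hKS : K ≤ (P : Subgroup G) := CfsgLib.PCore.pCore_le_sylow P
  have hinf : ∀ R0 : Subgroup (G ⧸ K), R0 ≤ R → R0 ⊓ (Pb : Subgroup (G ⧸ K)) = ⊥ := fun R0 h0 => by
    rw [inf_comm]
    exact CfsgLib.PCore.inf_eq_bot_of_isPGroup_of_coprime Pb.2
      (Nat.Coprime.coprime_dvd_left (Subgroup.card_dvd_of_le h0) hRp)
  have hdich : ∀ R0 : Subgroup (G ⧸ K), R0 ≤ R →
      (Pb : Subgroup (G ⧸ K)) ≤ Subgroup.normalizer (R0 : Set (G ⧸ K)) → R0 = ⊥ ∨ R0 = R := by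
    intro R0 h0 h1
    by_cases htop : (Pb : Subgroup (G ⧸ K)) ⊔ R0 = ⊤
    · right
      refine Subgroup.eq_of_le_of_card_ge h0 ?_
      have c1 := card_sup_mul_card_inf_of_le_normalizer h1
      have c2 := card_sup_mul_card_inf_of_le_normalizer
        (le_top.trans_eq (Subgroup.normalizer_eq_top (H := R)).symm :
          (Pb : Subgroup (G ⧸ K)) ≤ Subgroup.normalizer (R : Set (G ⧸ K)))
      rw [htop, inf_comm, hinf R0 h0, Subgroup.card_bot, mul_one] at c1
      have htop2 : (Pb : Subgroup (G ⧸ K)) ⊔ R = ⊤ := top_le_iff.1 (htop ▸ sup_le_sup le_rfl h0)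
      rw [htop2, inf_comm, hinf R le_rfl, Subgroup.card_bot, mul_one] at c2
      exact (Nat.eq_of_mul_eq_mul_left Nat.card_pos (c1.symm.trans c2)).ge
    · left
      set H := ((Pb : Subgroup (G ⧸ K)) ⊔ R0).comap π with hH
      have hSH : (P : Subgroup G) ≤ H := by
        rw [hH, ← Subgroup.map_le_iff_le_comap, ← hPb]; exact le_sup_left
      have hHt : H ≠ ⊤ := fun h => htop (by
        rw [← Subgroup.map_comap_eq_self_of_surjective (QuotientGroup.mk'_surjective K)
          ((Pb : Subgroup (G ⧸ K)) ⊔ R0), ← hH, h]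
        exact Subgroup.map_top_of_surjective _ (QuotientGroup.mk'_surjective K))
      have hHn := hsubP H P hSH hHt
      have hKH : K ≤ H := hKS.trans hSH
      haveI := CfsgLib.Transfer.pResidual_normal (p := p) (G := H)
      set O := (Cfsg.pResidual p H).map H.subtype with hOdef
      have hOc : (Nat.card O).Coprime p := by
        rw [hOdef, Subgroup.card_map_of_injective H.subtype_injective]
        exact (hp.out.coprime_iff_not_dvd.2 (CfsgLib.Transfer.hasNormalPComplement_iff.1 hHn)).symm
      have hKO : K ⊓ O = ⊥ :=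
        CfsgLib.PCore.inf_eq_bot_of_isPGroup_of_coprime (CfsgLib.PCore.isPGroup_pCore p G) hOc
      have hOK : O ≤ K := by
        refine le_trans ?_ hCK
        intro o ho
        refine Subgroup.mem_centralizer_iff.2 fun k hk => ?_
        have h2 : ⁅k, o⁆ ∈ K ⊓ O := by
          refine ⟨?_, ?_⟩
          · rw [commutatorElement_def, mul_assoc, mul_assoc]
            refine K.mul_mem hk ?_
            have := hKnorm.conj_mem _ (K.inv_mem hk) o
            simpa [mul_assoc] using this
          · obtain ⟨o', ho', rfl⟩ := ho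
            rw [commutatorElement_def]
            refine O.mul_mem ?_ (O.inv_mem ⟨o', ho', rfl⟩)
            exact ⟨⟨k, hKH hk⟩ * o' * ⟨k, hKH hk⟩⁻¹,
              Subgroup.Normal.conj_mem (CfsgLib.Transfer.pResidual_normal) o' ho' _, rfl⟩
        rw [hKO, Subgroup.mem_bot, commutatorElement_eq_one_iff_mul_comm] at h2
        exact h2
      have hOb : O = ⊥ := by
        rw [← inf_eq_right.2 hOK, hKO]
      -- a `p'`-element of `R0` lifts into `O`
      rw [eq_bot_iff]
      intro r hr
      obtain ⟨x, rfl⟩ := QuotientGroup.mk'_surjective K r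
      obtain ⟨a, b, hab, -, ⟨j, hj⟩, hb, hax, hbx⟩ := CfsgLib.Transfer.exists_pPart_mul (p := p) x
      have hxH : x ∈ H := (le_sup_right : R0 ≤ _) hr
      have hzp : ∀ y ∈ Subgroup.zpowers x, y ∈ H ∧ π y ∈ R0 := by
        intro y hy
        obtain ⟨i, rfl⟩ := Subgroup.mem_zpowers_iff.1 hy
        exact ⟨H.zpow_mem hxH i, by rw [map_zpow]; exact R0.zpow_mem hr i⟩
      have hb1 : b = 1 := by
        have : b ∈ O := ⟨⟨b, (hzp b hbx).1⟩, CfsgLib.Transfer.mem_pResidual_of_coprime
          (by rwa [Subgroup.orderOf_mk]), rfl⟩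
        rwa [hOb, Subgroup.mem_bot] at this
      have ha1 : π a = 1 := by
        have h3 : orderOf (π a) ∣ p ^ j := hj ▸ orderOf_map_dvd π a
        have h4 : orderOf (π a) ∣ Nat.card R := Subgroup.orderOf_dvd_natCard R (h0 (hzp a hax).2)
        exact orderOf_eq_one_iff.1 (Nat.eq_one_of_dvd_coprimes (hRp.symm.pow_left j) h3 h4)
      rw [Subgroup.mem_bot, hab, hb1, mul_one]
      exact ha1
  -- `R` is abelian
  have hRcomm : ∀ x ∈ R, ∀ y ∈ R, x * y = y * x := by
    by_cases hR0 : R = ⊥
    · intro x hx y hy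
      rw [hR0, Subgroup.mem_bot] at hx hy
      rw [hx, hy]
    haveI : Nontrivial R := R.nontrivial_iff_ne_bot.2 hR0
    set q := (Nat.card R).minFac
    have hq : q.Prime := Nat.minFac_prime (Finite.one_lt_card (α := R)).ne'
    haveI : Fact q.Prime := ⟨hq⟩
    obtain ⟨k, hk⟩ := IsPGroup.iff_card.1 Pb.2
    haveI := Pb.2.isNilpotent
    obtain ⟨Q, hQ⟩ := CfsgLib.CoprimeAction.exists_invariant_sylow (A := (Pb : Subgroup (G ⧸ K))) (K := R)
      (le_top.trans_eq (Subgroup.normalizer_eq_top _).symm) (hk ▸ hRp.symm.pow_left k)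
      (Or.inl inferInstance) q
    set Qm := (Q : Subgroup R).map R.subtype with hQm
    have hQm0 : Qm ≠ ⊥ := by
      rw [hQm, Ne, Subgroup.map_eq_bot_iff_of_injective _ R.subtype_injective]
      exact Q.ne_bot_of_dvd_card (Nat.minFac_dvd _)
    have hQR : Qm = R := ((hdich Qm (Subgroup.map_subtype_le _) hQ).resolve_left hQm0)
    have hRq : IsPGroup q R := hQR ▸ Q.2.map _
    set C := R ⊓ Subgroup.centralizer (R : Set (G ⧸ K)) with hC
    have hC0 : C ≠ ⊥ := center_inf_ne_bot hRq hR0
    have hCR : C = R := by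
      refine (hdich C inf_le_left ?_).resolve_left hC0
      exact (le_top.trans_eq (Subgroup.normalizer_eq_top (H := R)).symm).trans
        (le_normalizer_centerInf R)
    intro x hx y hy
    exact (Subgroup.mem_centralizer_iff.1 (hCR.ge hx).2 y hy).symm
  have hD : ((Pb : Subgroup (G ⧸ K)) ⊓ Subgroup.centralizer (R : Set (G ⧸ K))) = ⊥ := by
    rw [eq_bot_iff, ← CfsgLib.PCore.pCore_quotient (p := p) (G := G)]
    refine CfsgLib.PCore.le_pCore ?_ (Pb.2.to_le inf_le_left)
    rw [← Subgroup.normalizer_eq_top_iff, eq_top_iff, ← CfsgLib.Transfer.pResidual_sup_sylow Pb]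
    refine sup_le ?_ ?_
    · refine fun r hr => Subgroup.centralizer_le_normalizer _ (Subgroup.mem_centralizer_iff.2 fun y hy => ?_)
      exact (Subgroup.mem_centralizer_iff.1 hy.2 r hr).symm
    · intro g hg
      refine Subgroup.mem_normalizer_fintype fun y hy => ⟨?_, ?_⟩
      · exact (Pb : Subgroup (G ⧸ K)).mul_mem ((Pb : Subgroup (G ⧸ K)).mul_mem hg hy.1) ((Pb : Subgroup (G ⧸ K)).inv_mem hg)
      · exact (Subgroup.normal_centralizer (H := R)).conj_mem _ hy.2 _
  refine false_of_offender hp5 P hCK hquot hRcomm (fun R0 h0 hn => hdich R0 h0 ?_) (fun g hg hgc => ?_) ?_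
  · rw [Subgroup.normalizer_eq_top_iff.2 hn]; exact le_top
  · have : π g ∈ (Pb : Subgroup (G ⧸ K)) ⊓ Subgroup.centralizer (R : Set (G ⧸ K)) :=
      ⟨by rw [hPb]; exact ⟨g, hg, rfl⟩, hgc⟩
    rw [hD, Subgroup.mem_bot] at this
    exact (QuotientGroup.eq_one_iff g).1 this
  · by_contra h
    push Not at h
    exact hJK (sSup_le h)

end CfsgLib.ZJFive
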