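import Cfsg.Agent.ZJFive.Module

/-!
An isotropic chain of length five in a module for an abelian coprime group and an abelian `p`-group over it.
-/

set_option autoImplicit false
set_option linter.style.haveILetI false
set_option linter.unusedSectionVars false
set_option maxHeartbeats 1000000

namespace CfsgLib.ZJFive

variable {G : Type*} [Group G] [Finite G] {M N : Type*} [AddCommGroup M] [Finite M] [AddCommGroup N]

theorem exists_chain {p : ℕ} [hp : Fact p.Prime] (hp5 : 5 ≤ p) (hpM : ∀ m : M, p • m = 0)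
    (Γ : G →* AddMonoid.End M) (Rs : Subgroup G)
    (hcomm : ∀ r ∈ Rs, ∀ s ∈ Rs, Γ r * Γ s = Γ s * Γ r)
    (hord : ∀ r ∈ Rs, ∃ n : ℕ, n.Coprime p ∧ Γ r ^ n = 1)
    (A : Subgroup G) (hAc : ∀ a ∈ A, ∀ b ∈ A, a * b = b * a) (hA : IsPGroup p A)
    (hnorm : ∀ a ∈ A, ∀ r ∈ Rs, a * r * a⁻¹ ∈ Rs)
    (hmove : ∃ a ∈ A, ∃ r ∈ Rs, Γ (a * r * a⁻¹) ≠ Γ r)
    (β : M →+ M →+ N) (halt : ∀ m, β m m = 0) (hinv : ∀ r ∈ Rs, ∀ m n, β (Γ r m) (Γ r n) = β m n) :
    ∃ a ∈ A, ∃ U : AddSubgroup M, (∀ t ∈ A, ∃ i : ℕ, ∀ m ∈ U, Γ (t * a ^ i) m = m) ∧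
      (∀ m ∈ U, Γ a m ∈ U) ∧ (∀ m ∈ U, Γ (a ^ p) m = m) ∧ (∀ m ∈ U, ∀ n ∈ U, β m n = 0) ∧
      ∃ m3 ∈ U, ∃ m4 ∈ U, (fun m => Γ a m - m)^[3] m3 ≠ 0 ∧ (fun m => Γ a m - m)^[4] m3 = 0 ∧
        (fun m => Γ a m - m)^[4] m4 ≠ 0 := by
  classical
  have hcomp : ∀ (g g' : AddMonoid.End M) (m : M), g (g' m) = (g * g') m := fun _ _ _ => rfl
  -- small scalars act invertibly
  have hsmall : ∀ k : ℕ, ¬ p ∣ k → ∀ m : M, k • m = 0 → m = 0 := by
    intro k hk m hm
    have h1 : addOrderOf m ∣ Nat.gcd k p :=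
      Nat.dvd_gcd (addOrderOf_dvd_of_nsmul_eq_zero hm) (addOrderOf_dvd_of_nsmul_eq_zero (hpM m))
    rw [((hp.out.coprime_iff_not_dvd).2 hk).symm, Nat.dvd_one, AddMonoid.addOrderOf_eq_one_iff] at h1
    exact h1
  haveI hMnt : Nontrivial M := by
    obtain ⟨a, -, r, -, h⟩ := hmove
    by_contra hM
    rw [not_nontrivial_iff_subsingleton] at hM
    exact h (AddMonoidHom.ext fun m => Subsingleton.elim _ _)
  haveI : Nontrivial (AddMonoid.End M) := by
    obtain ⟨m, hm⟩ := exists_ne (0 : M)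
    exact ⟨1, 0, fun h => hm (congrArg (fun g : AddMonoid.End M => g m) h)⟩
  have hpE : (p : AddMonoid.End M) = 0 := AddMonoidHom.ext fun m => by
    show (p : AddMonoid.End M) m = 0
    rw [AddMonoid.End.natCast_apply, hpM]
  haveI hcharE : CharP (AddMonoid.End M) p := (CharP.charP_iff_prime_eq_zero hp.out).2 hpE
  have hmulΓ : ∀ g h : G, Γ g * Γ h = Γ (g * h) := fun g h => (map_mul Γ g h).symm
  -- a power of `p` fixing the images
  obtain ⟨q, hq3, hqpow, hqΓ⟩ : ∃ q : ℕ, 3 ≤ q ∧ (∃ k, q = p ^ k) ∧ ∀ r ∈ Rs, Γ r ^ q = Γ r := by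
    cases nonempty_fintype Rs
    choose n hn1 hn2 using fun r : Rs => hord r r.2
    set L := ∏ r : Rs, n r
    have hL : L.Coprime p := Nat.Coprime.prod_left fun r _ => hn1 r
    have hL0 : 0 < L := Nat.pos_of_ne_zero fun h => by
      rw [h, Nat.coprime_zero_left] at hL
      exact hp.out.ne_one hL
    refine ⟨p ^ L.totient, le_trans (by omega : 3 ≤ p) (Nat.le_self_pow (Nat.totient_pos.2 hL0).ne' p),
      ⟨_, rfl⟩, fun r hr => ?_⟩
    have hmod := Nat.ModEq.pow_totient hL.symm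
    obtain ⟨c, hc⟩ := (Nat.modEq_iff_dvd' (Nat.one_le_pow _ _ hp.out.pos)).1 hmod.symm
    obtain ⟨d, hd⟩ := Finset.dvd_prod_of_mem n (Finset.mem_univ (⟨r, hr⟩ : Rs))
    rw [show p ^ L.totient = n ⟨r, hr⟩ * (d * c) + 1 by
      rw [← mul_assoc, ← hd, ← hc, Nat.sub_add_cancel (Nat.one_le_pow _ _ hp.out.pos)], pow_succ, pow_mul, hn2 ⟨r, hr⟩,
      one_pow, one_mul]
  obtain ⟨k₀, hk₀⟩ := hqpow
  -- conjugation
  let cj : A → AddMonoid.End M →+* AddMonoid.End M := fun a =>
    { toFun := fun x => Γ a * x * Γ (a : G)⁻¹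
      map_one' := by rw [mul_one, hmulΓ, mul_inv_cancel, map_one]
      map_zero' := by rw [mul_zero, zero_mul]
      map_add' := fun x y => by rw [mul_add, add_mul]
      map_mul' := fun x y => by
        simp only [mul_assoc]
        rw [← mul_assoc (Γ (a : G)⁻¹) (Γ (a : G)), hmulΓ, inv_mul_cancel, map_one, one_mul] }
  have hcjΓ : ∀ (a : A) (r : G), cj a (Γ r) = Γ ((a : G) * r * (a : G)⁻¹) := fun a r => by
    show Γ (a : G) * Γ r * Γ (a : G)⁻¹ = _
    rw [hmulΓ, hmulΓ]
  -- the two rings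
  let Tfull : Set (AddMonoid.End M) := Γ '' (Rs : Set G)
  let Tsym : Set (AddMonoid.End M) := (fun r => Γ r + Γ r⁻¹) '' (Rs : Set G)
  let S' := Subring.closure Tfull
  let S := Subring.closure Tsym
  have hSS' : S ≤ S' := (Subring.closure_le).2 <| by
    rintro _ ⟨r, hr, rfl⟩
    exact S'.add_mem (Subring.subset_closure ⟨r, hr, rfl⟩) (Subring.subset_closure ⟨r⁻¹, Rs.inv_mem hr, rfl⟩)
  have hS'comm : ∀ x ∈ S', ∀ y ∈ S', x * y = y * x := by
    intro x hx y hy
    have h1 : S' ≤ Subring.centralizer Tfull := (Subring.closure_le).2 <| by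
      rintro _ ⟨r, hr, rfl⟩
      rw [SetLike.mem_coe, Subring.mem_centralizer_iff]
      rintro _ ⟨s, hs, rfl⟩
      exact hcomm s hs r hr
    have h2 : S' ≤ Subring.centralizer (S' : Set (AddMonoid.End M)) := (Subring.closure_le).2 fun z hz => by
      rw [SetLike.mem_coe, Subring.mem_centralizer_iff]
      exact fun w hw => (Subring.mem_centralizer_iff.1 (h1 hw) z hz).symm
    exact (Subring.mem_centralizer_iff.1 (h2 hx) y hy).symm
  letI : CommRing S' := { (inferInstance : Ring S') with mul_comm := fun a b => Subtype.ext (hS'comm a a.2 b b.2) }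
  letI : CommRing S :=
    { (inferInstance : Ring S) with mul_comm := fun a b => Subtype.ext (hS'comm a (hSS' a.2) b (hSS' b.2)) }
  have hfrob : ∀ x ∈ S', x ^ q = x := by
    intro x hx
    induction hx using Subring.closure_induction with
    | mem y hy => obtain ⟨r, hr, rfl⟩ := hy; exact hqΓ r hr
    | zero => exact zero_pow (by omega)
    | one => exact one_pow q
    | add a b ha hb iha ihb => rw [hk₀, add_pow_char_pow_of_commute (p := p) (n := k₀) (h := hS'comm a ha b hb), ← hk₀, iha, ihb]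
    | neg a ha iha =>
      rw [Odd.neg_pow (by rw [hk₀]; exact (hp.out.odd_of_ne_two (by omega)).pow), iha]
    | mul a b ha hb iha ihb => rw [(show Commute a b from hS'comm a ha b hb).mul_pow, iha, ihb]
  haveI : Finite (AddMonoid.End M) := Finite.of_injective (fun f : AddMonoid.End M => (f : M → M)) fun f g h => AddMonoidHom.ext (congrFun h :)
  have hgen : ∀ r ∈ Rs, Γ r + Γ r⁻¹ ∈ S := fun r hr => Subring.subset_closure ⟨r, hr, rfl⟩
  have hinvS' : ∀ (a : A), ∀ x ∈ S', cj a x ∈ S' := fun a x hx => by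
    have hle : S' ≤ S'.comap (cj a) := (Subring.closure_le).2 <| by
      rintro _ ⟨r, hr, rfl⟩
      show cj a (Γ r) ∈ S'
      rw [hcjΓ]
      exact Subring.subset_closure ⟨_, hnorm a a.2 r hr, rfl⟩
    exact hle hx
  have hinvS : ∀ (a : A), ∀ x ∈ S, cj a x ∈ S := fun a x hx => by
    have hle : S ≤ S.comap (cj a) := (Subring.closure_le).2 <| by
      rintro _ ⟨r, hr, rfl⟩
      show cj a (Γ r + Γ r⁻¹) ∈ S
      rw [map_add, hcjΓ, hcjΓ, show (a : G) * r⁻¹ * (a : G)⁻¹ = ((a : G) * r * (a : G)⁻¹)⁻¹ by group]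
      exact hgen _ (hnorm a a.2 r hr)
    exact hle hx
  haveI : IsMulCommutative A := ⟨⟨fun a b => Subtype.ext (hAc a a.2 b b.2)⟩⟩
  letI : CommGroup A := { (inferInstance : Group A) with mul_comm := fun a b => Subtype.ext (hAc a a.2 b b.2) }
  have hcj1 : ∀ x, cj 1 x = x := fun x => by
    show Γ ((1 : A) : G) * x * Γ ((1 : A) : G)⁻¹ = x
    rw [OneMemClass.coe_one, inv_one, map_one, one_mul, mul_one]
  have hcjm : ∀ a b x, cj (a * b) x = cj a (cj b x) := fun a b x => by
    show Γ ((a * b : A) : G) * x * Γ ((a * b : A) : G)⁻¹ = Γ (a : G) * (Γ (b : G) * x * Γ (b : G)⁻¹) * Γ (a : G)⁻¹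
    rw [Subgroup.coe_mul, mul_inv_rev, map_mul, map_mul]; simp only [mul_assoc]
  let σ : A →* (S →+* S) :=
    { toFun := fun a => ((cj a).comp S.subtype).codRestrict S fun x => hinvS a x x.2
      map_one' := RingHom.ext fun x => Subtype.ext (hcj1 x)
      map_mul' := fun a b => RingHom.ext fun x => Subtype.ext (hcjm a b x) }
  -- some element moves the symmetric ring
  have hne : ∃ a x, σ a x ≠ x := by
    by_contra hall
    push Not at hall
    have hfix : ∀ (a : A), ∀ r ∈ Rs, cj a (Γ r + Γ r⁻¹) = Γ r + Γ r⁻¹ := fun a r hr =>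
      congrArg Subtype.val (hall a ⟨_, hgen r hr⟩)
    have hsq : ∀ (a : A), ∀ r ∈ Rs, cj a (cj a (Γ r)) = Γ r := by
      intro a r hr
      let σ' : S' →+* S' := ((cj a).comp S'.subtype).codRestrict S' fun x => hinvS' a x x.2
      set z : AddMonoid.End M := Γ r - Γ r⁻¹ with hz
      have hzS : z ∈ S' := S'.sub_mem (Subring.subset_closure ⟨r, hr, rfl⟩)
        (Subring.subset_closure ⟨r⁻¹, Rs.inv_mem hr, rfl⟩)
      have hfixS : ∀ x ∈ S, cj a x = x := fun x hx => congrArg Subtype.val (hall a ⟨x, hx⟩)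
      have hs := hnorm a a.2 r hr
      have e1 : z ^ 2 ∈ S := by
        have : z ^ 2 = (Γ (r * r) + Γ (r * r)⁻¹) - 1 - 1 := by
          rw [hz, pow_two, sub_mul, mul_sub, mul_sub]
          simp only [hmulΓ]
          rw [mul_inv_cancel, inv_mul_cancel, map_one, mul_inv_rev]
          abel
        rw [this]
        exact S.sub_mem (S.sub_mem (hgen _ (Rs.mul_mem hr hr)) S.one_mem) S.one_mem
      have e2 : cj a z * z ∈ S := by
        have : cj a z * z = (Γ ((a : G) * r * (a : G)⁻¹ * r) + Γ ((a : G) * r * (a : G)⁻¹ * r)⁻¹) -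
            (Γ ((a : G) * r * (a : G)⁻¹ * r⁻¹) + Γ ((a : G) * r * (a : G)⁻¹ * r⁻¹)⁻¹) := by
          rw [hz, map_sub, hcjΓ, hcjΓ, sub_mul, mul_sub, mul_sub,
            show (a : G) * r⁻¹ * (a : G)⁻¹ = ((a : G) * r * (a : G)⁻¹)⁻¹ by group]
          generalize (a : G) * r * (a : G)⁻¹ = s at hs ⊢
          rw [mul_inv_rev, mul_inv_rev, inv_inv]
          simp only [← hmulΓ]
          rw [hcomm r⁻¹ (Rs.inv_mem hr) s⁻¹ (Rs.inv_mem hs), hcomm r hr s⁻¹ (Rs.inv_mem hs)]
          abel
        rw [this]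
        exact S.sub_mem (hgen _ (Rs.mul_mem hs hr)) (hgen _ (Rs.mul_mem hs (Rs.inv_mem hr)))
      have h := fixed_of_skew (q := q) (by omega) (fun x : S' => Subtype.ext (by simpa using hfrob x x.2)) σ'
        ⟨z, hzS⟩ (Subtype.ext (show cj a (z ^ 2) = z ^ 2 from hfixS _ e1))
        (Subtype.ext (show cj a (cj a z * z) = cj a z * z from hfixS _ e2))
      have h' : cj a (cj a z) = z := congrArg Subtype.val h
      have hsum : cj a (cj a (Γ r + Γ r⁻¹)) = Γ r + Γ r⁻¹ := by rw [hfix a r hr, hfix a r hr]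
      rw [map_add, map_add] at hsum
      rw [hz, map_sub, map_sub] at h'
      have h2 : cj a (cj a (Γ r)) + cj a (cj a (Γ r)) = Γ r + Γ r := by
        calc _ = (cj a (cj a (Γ r)) + cj a (cj a (Γ r⁻¹))) + (cj a (cj a (Γ r)) - cj a (cj a (Γ r⁻¹))) := by abel
          _ = _ := by rw [hsum, h']; abel
      refine AddMonoidHom.ext fun m => sub_eq_zero.1 (hsmall 2 (fun h => ?_) _ ?_)
      · have := Nat.le_of_dvd two_pos h; omega
      · have := congrArg (fun g : AddMonoid.End M => g m) h2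
        change cj a (cj a (Γ r)) m + cj a (cj a (Γ r)) m = Γ r m + Γ r m at this
        rw [two_nsmul]
        calc _ = (cj a (cj a (Γ r)) m + cj a (cj a (Γ r)) m) - (Γ r m + Γ r m) := by abel
          _ = 0 := by rw [this, sub_self]
    obtain ⟨a, ha, r, hr, hmov⟩ := hmove
    apply hmov
    obtain ⟨k, hk⟩ := hA ⟨a, ha⟩
    obtain ⟨j, hj⟩ := (hp.out.odd_of_ne_two (by omega)).pow (n := k)
    have h := hsq (⟨a, ha⟩ ^ (j + 1)) r hr
    rw [← hcjm, ← pow_add, show j + 1 + (j + 1) = p ^ k + 1 by omega, pow_succ, hk, one_mul, hcjΓ] at h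
    exact h
  obtain ⟨a, ε, u, hεne, hεε, hεfix, hau, hcyc⟩ := exists_translation hq3
    (fun x : S => Subtype.ext (by simpa using hfrob x (hSS' x.2)))
    (Subtype.ext (by simpa using hpE)) hA σ hne
  -- the action on vectors
  have hact : ∀ (t : A) (x : S) (m : M), Γ (t : G) ((x : AddMonoid.End M) m) =
      ((σ t x : S) : AddMonoid.End M) (Γ (t : G) m) := fun t x m => by
    show Γ (t : G) ((x : AddMonoid.End M) m) = (Γ (t : G) * (x : AddMonoid.End M) * Γ (t : G)⁻¹) (Γ (t : G) m)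
    rw [hcomp, hcomp, mul_assoc, hmulΓ, inv_mul_cancel, map_one, mul_one]
  let Mε : AddSubgroup M := AddMonoidHom.eqLocus ((ε : AddMonoid.End M) : M →+ M) (AddMonoidHom.id M)
  have hMεinv : ∀ (t : A), ∀ m ∈ Mε, Γ (t : G) m ∈ Mε := fun t m hm => by
    show (ε : AddMonoid.End M) (Γ (t : G) m) = Γ (t : G) m
    conv_rhs => rw [← show (ε : AddMonoid.End M) m = m from hm, hact, hεfix]
  letI : MulAction A Mε :=
    { smul := fun t m => ⟨Γ (t : G) m, hMεinv t m m.2⟩
      one_smul := fun m => Subtype.ext (by show Γ ((1 : A) : G) m = m; rw [OneMemClass.coe_one, map_one]; rfl)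
      mul_smul := fun s t m => Subtype.ext (by
        show Γ ((s * t : A) : G) m = Γ (s : G) (Γ (t : G) m); rw [Subgroup.coe_mul, map_mul]; rfl) }
  obtain ⟨m₀, hm₀⟩ : ∃ m : M, (ε : AddMonoid.End M) m ≠ 0 := by
    by_contra h
    push Not at h
    exact hεne (Subtype.ext (AddMonoidHom.ext h))
  have hεm₀ : (ε : AddMonoid.End M) m₀ ∈ Mε := by
    show (ε : AddMonoid.End M) ((ε : AddMonoid.End M) m₀) = (ε : AddMonoid.End M) m₀
    rw [hcomp]
    exact congrArg (fun g : S => (g : AddMonoid.End M) m₀) hεε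
  have hdvd : p ∣ Nat.card Mε := by
    have h1 : addOrderOf (⟨_, hεm₀⟩ : Mε) = p :=
      addOrderOf_eq_prime (Subtype.ext (hpM _)) (fun h => hm₀ (congrArg Subtype.val h))
    exact h1 ▸ addOrderOf_dvd_natCard _
  obtain ⟨f, hf, hf0⟩ := hA.exists_fixed_point_of_prime_dvd_card_of_fixed_point (α := Mε) hdvd
    (a := (0 : Mε)) (fun t => Subtype.ext (map_zero (Γ (t : G))))
  have hfix0 : ∀ t : A, Γ (t : G) (f : M) = f := fun t => congrArg Subtype.val (hf t)
  have hεf : (ε : AddMonoid.End M) (f : M) = f := f.2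
  have hf0' : (f : M) ≠ 0 := fun h => hf0 (Subtype.ext h.symm)
  -- the chain
  let v : ℕ → M := fun k => ((u ^ k : S) : AddMonoid.End M) (f : M)
  let U : AddSubgroup M := AddSubgroup.closure (Set.range v)
  have hv : ∀ (t : A) (k : ℕ), Γ (t : G) (v k) = (((σ t u) ^ k : S) : AddMonoid.End M) (f : M) := fun t k => by
    show Γ (t : G) (((u ^ k : S) : AddMonoid.End M) (f : M)) = _
    rw [hact, hfix0, map_pow]
  have hav : ∀ k, Γ (a : G) (v k) = ∑ j ∈ Finset.range (k + 1), k.choose j • v j := by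
    intro k
    let ev : S →+ M := AddMonoidHom.mk' (fun x : S => (x : AddMonoid.End M) (f : M)) fun x y => rfl
    rw [hv, hau, add_pow]
    show ev _ = _
    rw [map_sum]
    refine Finset.sum_congr rfl fun j hj => ?_
    have hεpow : ∀ n : ℕ, ((ε ^ n : S) : AddMonoid.End M) (f : M) = f := by
      intro n
      induction n with
      | zero => rw [pow_zero]; rfl
      | succ n ih => rw [pow_succ]; show ((ε ^ n : S) : AddMonoid.End M) ((ε : AddMonoid.End M) (f : M)) = _; rw [hεf, ih]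
    rw [← nsmul_eq_mul', map_nsmul]
    show k.choose j • ((u ^ j * ε ^ (k - j) : S) : AddMonoid.End M) (f : M) = _
    show k.choose j • ((u ^ j : S) : AddMonoid.End M) (((ε ^ (k - j) : S) : AddMonoid.End M) (f : M)) = _
    rw [hεpow]
  have hvU : ∀ k, v k ∈ U := fun k => AddSubgroup.subset_closure ⟨k, rfl⟩
  have hβS : ∀ x ∈ S, ∀ m n, β (x m) n = β m (x n) := by
    intro x hx
    induction hx using Subring.closure_induction with
    | mem y hy =>
      obtain ⟨r, hr, rfl⟩ := hy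
      intro m n
      have h1 : ∀ s ∈ Rs, β (Γ s m) n = β m (Γ s⁻¹ n) := fun s hs => by
        rw [← hinv s hs m (Γ s⁻¹ n), hcomp, hmulΓ, mul_inv_cancel,
          map_one]
        rfl
      show β (Γ r m + Γ r⁻¹ m) n = β m (Γ r n + Γ r⁻¹ n)
      rw [map_add, AddMonoidHom.add_apply, h1 r hr, h1 r⁻¹ (Rs.inv_mem hr), inv_inv, map_add, add_comm]
    | zero => intro m n; show β (0 : M) n = β m (0 : M); simp
    | one => intro m n; rfl
    | add a b _ _ iha ihb =>
      intro m n
      show β (a m + b m) n = β m (a n + b n)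
      rw [map_add, AddMonoidHom.add_apply, iha, ihb, map_add]
    | neg a _ iha => intro m n; show β (-a m) n = β m (-a n); rw [map_neg, AddMonoidHom.neg_apply, iha, map_neg]
    | mul a b ha hb iha ihb =>
      intro m n
      show β (a (b m)) n = β m (a (b n))
      rw [iha, ihb, hcomp, hcomp, hS'comm a (hSS' ha) b (hSS' hb)]
  have hN : ∀ m n, p • β m n = 0 := fun m n => by
    rw [← AddMonoidHom.nsmul_apply, ← map_nsmul, hpM, map_zero, AddMonoidHom.zero_apply]
  have hsk : ∀ m n, β m n = - β n m := fun m n => by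
    have := halt (m + n)
    simp only [map_add, AddMonoidHom.add_apply, halt, zero_add, add_zero] at this
    exact eq_neg_of_add_eq_zero_right this
  have hiso : ∀ i j, β (v i) (v j) = 0 := by
    have hbase : ∀ k, β (f : M) (v k) = 0 := fun k => by
      set w := β (f : M) (v k)
      have h1 : w = -w := by
        conv_rhs => rw [show w = β (f : M) (v k) from rfl, ← hsk (v k) (f : M)]
        exact (hβS _ (u ^ k : S).2 _ _).symm
      have h2 : 2 • w = 0 := by rw [two_nsmul]; exact eq_neg_iff_add_eq_zero.1 h1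
      obtain ⟨c, hc⟩ := (hp.out.odd_of_ne_two (by omega) : Odd p)
      have h3 := hN (f : M) (v k)
      rw [hc, add_nsmul, mul_comm, mul_nsmul', show (2 : ℕ) • w = 0 from h2] at h3
      simpa using h3
    intro i j
    show β (((u ^ i : S) : AddMonoid.End M) (f : M)) (v j) = 0
    rw [hβS _ (u ^ i : S).2]
    have : ((u ^ i : S) : AddMonoid.End M) (v j) = v (i + j) := by
      show ((u ^ i : S) : AddMonoid.End M) (((u ^ j : S) : AddMonoid.End M) (f : M)) = ((u ^ (i + j) : S) : AddMonoid.End M) (f : M)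
      rw [pow_add]; rfl
    rw [this]; exact hbase _
  have hap : σ (a ^ p) u = u := by
    have hpow : ∀ n : ℕ, σ (a ^ n) u = u + n • ε := by
      intro n
      induction n with
      | zero => simp
      | succ n ih =>
        rw [pow_succ', map_mul]
        show σ a (σ (a ^ n) u) = _
        rw [ih, map_add, map_nsmul, hau, hεfix, succ_nsmul', add_assoc]
    rw [hpow, nsmul_eq_mul, show (p : S) = 0 from Subtype.ext (by simpa using hpE), zero_mul, add_zero]
  refine ⟨a, a.2, U, fun t ht => ?_, ?_, fun m hm => ?_, ?_, v 3, hvU 3, v 4, hvU 4, ?_⟩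
  · obtain ⟨i, hi⟩ := hcyc ⟨t, ht⟩
    refine ⟨i, fun m hm => ?_⟩
    induction hm using AddSubgroup.closure_induction with
    | mem y hy =>
      obtain ⟨k, rfl⟩ := hy
      have := hv (⟨t, ht⟩ * a ^ i) k
      rw [hi] at this
      exact this
    | zero => exact map_zero _
    | add x y _ _ hx hy => rw [map_add, hx, hy]
    | neg x _ hx => rw [map_neg, hx]
  · intro m hm
    induction hm using AddSubgroup.closure_induction with
    | mem y hy => obtain ⟨k, rfl⟩ := hy; rw [hav]; exact U.sum_mem fun j _ => U.nsmul_mem (hvU j) _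
    | zero => rw [map_zero]; exact U.zero_mem
    | add x y _ _ hx hy => rw [map_add]; exact U.add_mem hx hy
    | neg x _ hx => rw [map_neg]; exact U.neg_mem hx
  · induction hm using AddSubgroup.closure_induction with
    | mem y hy =>
      obtain ⟨k, rfl⟩ := hy
      have := hv (a ^ p) k
      rw [hap] at this
      exact this
    | zero => exact map_zero _
    | add x y _ _ hx hy => rw [map_add, hx, hy]
    | neg x _ hx => rw [map_neg, hx]
  · intro m hm n hn
    induction hm, hn using AddSubgroup.closure_induction₂ with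
    | mem x y hx hy => obtain ⟨i, rfl⟩ := hx; obtain ⟨j, rfl⟩ := hy; exact hiso i j
    | zero_left x _ => simp
    | zero_right x _ => simp
    | add_left x y z _ _ _ h h' => simp [h, h']
    | add_right x y z _ _ _ h h' => simp [h, h']
    | neg_left x y _ _ h => simp [h]
    | neg_right x y _ _ h => simp [h]
  have hv0 : v 0 = (f : M) := by show ((u ^ 0 : S) : AddMonoid.End M) (f : M) = f; rw [pow_zero]; rfl
  set δ := fun m => Γ (a : G) m - m with hδ
  have hadd : ∀ x y, δ (x + y) = δ x + δ y := fun x y => by simp only [hδ, map_add]; abel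
  have hsmul : ∀ (k : ℕ) x, δ (k • x) = k • δ x := fun k x => by simp only [hδ, map_nsmul, nsmul_sub]
  have d0 : δ (v 0) = 0 := by simp only [hδ, hv0, hfix0, sub_self]
  have d1 : δ (v 1) = v 0 := by simp [hδ, hav, Finset.sum_range_succ]
  have d2 : δ (v 2) = v 0 + 2 • v 1 := by simp [hδ, hav, Finset.sum_range_succ]
  have d3 : δ (v 3) = v 0 + 3 • v 1 + 3 • v 2 := by simp [hδ, hav, Finset.sum_range_succ, Nat.choose]
  have d4 : δ (v 4) = v 0 + 4 • v 1 + 6 • v 2 + 4 • v 3 := by simp [hδ, hav, Finset.sum_range_succ, Nat.choose]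
  have hδ0 : δ 0 = 0 := by simp [hδ]
  have e33 : δ^[3] (v 3) = 6 • (f : M) := by
    simp only [Function.iterate_succ_apply, Function.iterate_zero, id_eq, hadd, hsmul, d0, d1, d2, d3, smul_zero,
      zero_add, add_zero, hδ0, ← hv0]
    rw [← mul_nsmul]
  have hnd : ∀ k : ℕ, 0 < k → (∀ r, r.Prime → r ∣ k → r ≤ 3) → ¬ p ∣ k := fun k _ h hd =>
    absurd (h p hp.out hd) (by omega)
  refine ⟨fun h => hf0' (hsmall 6 ?_ _ (e33 ▸ h)), ?_, fun h => hf0' (hsmall 24 ?_ _ ?_)⟩
  · exact hnd 6 (by norm_num) fun r hr hd => by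
      have := Nat.le_of_dvd (by norm_num) hd; interval_cases r <;> norm_num at *
  · rw [Function.iterate_succ_apply', e33, hsmul, ← hv0, d0, smul_zero]
  · exact hnd 24 (by norm_num) fun r hr hd => by
      have := Nat.le_of_dvd (by norm_num) hd; interval_cases r <;> norm_num at *
  · rw [← h]
    simp only [Function.iterate_succ_apply, Function.iterate_zero, id_eq, hadd, hsmul, d0, d1, d2, d3, d4, smul_zero,
      zero_add, add_zero, hδ0, ← hv0]
    rw [← mul_nsmul, ← mul_nsmul]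
    try rfl

end CfsgLib.ZJFive
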