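import Cfsg.Agent.ZJFive.Chain
import Cfsg.Agent.ZJ.Complement
import Cfsg.Agent.Offender.Replacement
import Cfsg.Agent.BBlock.Basic
import Cfsg.Agent.PGroup.Basic

/-!
For `p ≥ 5`, abelian subgroups of largest order of a Sylow subgroup lie in `O_p(G)` in the reduced configuration.
-/

set_option autoImplicit false
set_option linter.style.haveILetI false
set_option linter.unusedSectionVars false
set_option maxHeartbeats 1000000

namespace CfsgLib.ZJFive

open scoped commutatorElement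
open CfsgLib.ZJ (Good maxGood good_sup good_mono good_closure good_commute le_of_good_centralizing mem_of_maxGood)

universe v

variable {G : Type v} [Group G] [Finite G]

theorem comm_swap {X W : Subgroup G} (hWX : W ≤ X) (hWc : ∀ w ∈ W, ∀ x ∈ X, w * x = x * w) {a c y : G}
    (hac : a * c = c * a) (hy : y ∈ X) (haX : ∀ x ∈ X, a * x * a⁻¹ ∈ X) (haW : ∀ w ∈ W, a * w * a⁻¹ ∈ W)
    (hcy : ⁅c, y⁆ ∈ W) : ⁅c, ⁅a, y⁆⁆ = ⁅a, ⁅c, y⁆⁆ := by
  set w := ⁅c, y⁆ with hw
  have e1 : c * y * c⁻¹ = w * y := by rw [hw, commutatorElement_def]; group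
  set y' := a * y * a⁻¹ with hy'
  set w' := a * w * a⁻¹ with hw'
  have e2 : c * y' * c⁻¹ = w' * y' := by
    have hai : a⁻¹ * c⁻¹ = c⁻¹ * a⁻¹ := by rw [← mul_inv_rev, ← hac, mul_inv_rev]
    calc c * y' * c⁻¹ = (c * a) * y * (a⁻¹ * c⁻¹) := by rw [hy']; group
      _ = a * (c * y * c⁻¹) * a⁻¹ := by rw [hai, ← hac]; group
      _ = w' * y' := by rw [e1, hw', hy']; group
  have e3 : c * y⁻¹ * c⁻¹ = y⁻¹ * w⁻¹ := by
    rw [show c * y⁻¹ * c⁻¹ = (c * y * c⁻¹)⁻¹ by group, e1, mul_inv_rev]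
  have hu : y' * y⁻¹ ∈ X := X.mul_mem (haX y hy) (X.inv_mem hy)
  calc ⁅c, ⁅a, y⁆⁆ = (c * y' * c⁻¹) * (c * y⁻¹ * c⁻¹) * (y' * y⁻¹)⁻¹ := by
        simp only [commutatorElement_def, hy']; group
    _ = w' * ((y' * y⁻¹) * w⁻¹) * (y' * y⁻¹)⁻¹ := by rw [e2, e3]; group
    _ = w' * w⁻¹ := by rw [← hWc _ (W.inv_mem hcy) _ hu]; group
    _ = ⁅a, w⁆ := by simp only [commutatorElement_def, hw']

theorem eq_bot_of_le_commutator {S T A : Subgroup G} {p : ℕ} [Fact p.Prime] (hS : IsPGroup p S) (hT : T ≤ S)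
    (hA : A ≤ S) (h : T ≤ ⁅T, A⁆) : T = ⊥ := by
  haveI := hS.isNilpotent
  have h2 : T.subgroupOf S ≤ ⁅T.subgroupOf S, (⊤ : Subgroup S)⁆ := by
    rw [← Subgroup.map_le_map_iff_of_injective S.subtype_injective, Subgroup.map_commutator,
      Subgroup.map_subgroupOf_eq_of_le hT, ← MonoidHom.range_eq_map, Subgroup.range_subtype]
    exact h.trans (Subgroup.commutator_mono le_rfl hA)
  have := CfsgLib.Transfer.eq_bot_of_le_commutator_top h2
  rwa [Subgroup.subgroupOf_eq_bot, disjoint_iff, inf_eq_left.2 hT] at this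

theorem false_of_offender {p : ℕ} [hp : Fact p.Prime] (hp5 : 5 ≤ p) (S : Sylow p G)
    (hCK : Subgroup.centralizer (Cfsg.pCore p G : Set G) ≤ Cfsg.pCore p G)
    (hquot : Cfsg.HasNormalPComplement p (G ⧸ Cfsg.pCore p G))
    (hRcomm : ∀ x ∈ Cfsg.pResidual p (G ⧸ Cfsg.pCore p G), ∀ y ∈ Cfsg.pResidual p (G ⧸ Cfsg.pCore p G),
      x * y = y * x)
    (hdich : ∀ R0 : Subgroup (G ⧸ Cfsg.pCore p G), R0 ≤ Cfsg.pResidual p (G ⧸ Cfsg.pCore p G) → R0.Normal →
      R0 = ⊥ ∨ R0 = Cfsg.pResidual p (G ⧸ Cfsg.pCore p G))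
    (hfaith : ∀ g ∈ (S : Subgroup G), QuotientGroup.mk' (Cfsg.pCore p G) g ∈
      Subgroup.centralizer (Cfsg.pResidual p (G ⧸ Cfsg.pCore p G) : Set (G ⧸ Cfsg.pCore p G)) →
        g ∈ Cfsg.pCore p G)
    (hF : ∃ A ∈ maxGood p false (S : Subgroup G), ¬ A ≤ Cfsg.pCore p G) : False := by
  classical
  set K := Cfsg.pCore p G with hKdef
  haveI hKn : K.Normal := Cfsg.pCore_normal p G
  have hKp : IsPGroup p K := CfsgLib.PCore.isPGroup_pCore p G
  have hKS : K ≤ (S : Subgroup G) := CfsgLib.PCore.pCore_le_sylow S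
  set π := QuotientGroup.mk' K with hπ
  set R := Cfsg.pResidual p (G ⧸ K) with hR
  set O := Cfsg.pResidual p G with hOdef
  haveI hOn : O.Normal := CfsgLib.Transfer.pResidual_normal
  have hOR : O.map π = R := CfsgLib.Transfer.map_pResidual_eq π (QuotientGroup.mk'_surjective K)
  have hRp : (Nat.card R).Coprime p :=
    (hp.out.coprime_iff_not_dvd.2 (CfsgLib.Transfer.hasNormalPComplement_iff.1 hquot)).symm
  have hOO : Cfsg.pResidualOf p O = O := by
    show (Cfsg.pResidual p ↥O).map O.subtype = O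
    rw [hOdef, CfsgLib.Transfer.pResidual_pResidual, ← MonoidHom.range_eq_map, Subgroup.range_subtype]
  have hnz : ∀ (H : Subgroup G), H.Normal → ∀ L : Subgroup G, L ≤ Subgroup.normalizer (H : Set G) :=
    fun H hH L => le_top.trans_eq (@Subgroup.normalizer_eq_top _ _ H hH).symm
  have hstep : ∀ (U U1 : Subgroup G), IsPGroup p U → U.Normal → ⁅U, O⁆ ≤ U1 → ⁅U1, O⁆ = ⊥ → ⁅U, O⁆ = ⊥ :=
    fun U U1 hU hUn h1 h2 => le_bot_iff.1 (CfsgLib.BBlock.commutator_le_of_step hOO hU (hnz U hUn O)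
      (hnz ⊥ inferInstance O) h1 h2.le)
  obtain ⟨A₀, hA₀, hA₀K⟩ := hF
  -- the module
  obtain ⟨X, ⟨hXn, hXK, hXO⟩, hXmin⟩ := Set.exists_min_image
    {X : Subgroup G | X.Normal ∧ X ≤ K ∧ ⁅X, O⁆ ≠ ⊥} (fun X => Nat.card X) (Set.toFinite _)
    ⟨K, hKn, le_rfl, fun h => hA₀K <| by
      rw [Subgroup.commutator_comm, Subgroup.commutator_eq_bot_iff_le_centralizer] at h
      have hOK : O ≤ K := h.trans hCK
      have hR0 : R = ⊥ := by rw [← hOR, Subgroup.map_eq_bot_iff, QuotientGroup.ker_mk']; exact hOK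
      intro a ha
      refine hfaith a (hA₀.1 ha) ?_
      rw [Subgroup.mem_centralizer_iff]
      intro r hr
      rw [SetLike.mem_coe, hR0, Subgroup.mem_bot] at hr
      rw [hr, one_mul, mul_one]⟩
  haveI := hXn
  have hlow : ∀ N : Subgroup G, N.Normal → N < X → ⁅N, O⁆ = ⊥ := by
    intro N hN hlt
    by_contra h
    have := hXmin N ⟨hN, hlt.le.trans hXK, h⟩
    exact hlt.ne (Subgroup.eq_of_le_of_card_ge hlt.le this)
  have hXp : IsPGroup p X := hKp.to_le hXK
  have hXX : ⁅X, O⁆ = X := by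
    by_contra h
    have hle : ⁅X, O⁆ ≤ X := Subgroup.commutator_le_left X O
    exact hXO (hstep X _ hXp hXn le_rfl (hlow _ inferInstance (lt_of_le_of_ne hle h)))
  obtain ⟨W, ⟨hWn, hWX⟩, hWmax⟩ := Set.exists_max_image {W : Subgroup G | W.Normal ∧ W < X}
    (fun W => Nat.card W) (Set.toFinite _)
    ⟨⊥, inferInstance, bot_lt_iff_ne_bot.2 fun h => hXO (by rw [h, Subgroup.commutator_bot_left])⟩
  haveI := hWn
  have hWirr : ∀ N : Subgroup G, N.Normal → W ≤ N → N ≤ X → ∀ x ∈ N, x ∉ W → N = X := by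
    intro N hN hWN hNX x hx hxW
    by_contra hne
    have hle := hWmax N ⟨hN, lt_of_le_of_ne hNX hne⟩
    exact hxW ((Subgroup.eq_of_le_of_card_ge hWN hle).ge hx)
  have hWK : W ≤ K := hWX.le.trans hXK
  have hWO : ⁅W, O⁆ = ⊥ := hlow W hWn hWX
  -- `K` acts trivially on the section
  have hXKW : ∀ x ∈ X, ∀ k ∈ K, ⁅x, k⁆ ∈ W := by
    haveI : (W.subgroupOf K).Normal := hWn.subgroupOf K
    haveI : (X.subgroupOf K).Normal := hXn.subgroupOf K
    have hlt : W.subgroupOf K < X.subgroupOf K := lt_of_le_not_ge (Subgroup.comap_mono hWX.le) fun h =>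
      hWX.not_ge fun x hx => h (show (⟨x, hXK hx⟩ : K) ∈ X.subgroupOf K from hx)
    obtain ⟨x, hxX, hxW, hx⟩ := CfsgLib.PGroup.exists_mem_central_mod hKp hlt
    set N := X ⊓ (Subgroup.centralizer ((K.map (QuotientGroup.mk' W) : Subgroup (G ⧸ W)) : Set (G ⧸ W))).comap
      (QuotientGroup.mk' W) with hN
    haveI : (K.map (QuotientGroup.mk' W)).Normal := hKn.map _ (QuotientGroup.mk'_surjective W)
    have hmemN : ∀ y : G, y ∈ X → (y ∈ N ↔ ∀ k ∈ K, ⁅y, k⁆ ∈ W) := by
      intro y hy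
      constructor
      · rintro ⟨-, hc⟩ k hk
        rw [← QuotientGroup.eq_one_iff]
        show QuotientGroup.mk' W ⁅y, k⁆ = 1
        rw [map_commutatorElement, commutatorElement_eq_one_iff_mul_comm]
        exact (Subgroup.mem_centralizer_iff.1 hc _ ⟨k, hk, rfl⟩).symm
      · intro hk
        refine ⟨hy, Subgroup.mem_centralizer_iff.2 ?_⟩
        rintro _ ⟨k, hk', rfl⟩
        symm
        rw [← commutatorElement_eq_one_iff_mul_comm, ← map_commutatorElement]
        exact (QuotientGroup.eq_one_iff _).2 (hk k hk')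
    have hNn : N.Normal := by
      haveI : (Subgroup.centralizer ((K.map (QuotientGroup.mk' W) : Subgroup (G ⧸ W)) : Set (G ⧸ W))).Normal :=
        Subgroup.normal_centralizer
      exact Subgroup.normal_inf_normal _ _
    have hWN : W ≤ N := fun w hw => (hmemN w (hWX.le hw)).2 fun k hk => by
      rw [show ⁅w, k⁆ = w * (k * w⁻¹ * k⁻¹) by rw [commutatorElement_def]; group]
      exact W.mul_mem hw (hWn.conj_mem _ (W.inv_mem hw) k)
    have hxN : (x : G) ∈ N := (hmemN x hxX).2 fun k hk => hx ⟨k, hk⟩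
    have hNX := hWirr N hNn hWN inf_le_left x hxN hxW
    intro y hy
    exact (hmemN y hy).1 (hNX.ge hy)
  -- exponent `p`
  have hpowW : ∀ x ∈ X, x ^ p ∈ W := by
    have hcm : ∀ x ∈ X, ∀ y ∈ X, Commute (QuotientGroup.mk' W x) (QuotientGroup.mk' W y) := fun x hx y hy => by
      show _ * _ = _ * _
      rw [← commutatorElement_eq_one_iff_mul_comm, ← map_commutatorElement]
      exact (QuotientGroup.eq_one_iff _).2 (hXKW x hx y (hXK hy))
    let N : Subgroup G :=
      { carrier := {x | x ∈ X ∧ (QuotientGroup.mk' W x) ^ p = 1}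
        one_mem' := ⟨one_mem _, by rw [map_one, one_pow]⟩
        mul_mem' := fun {x y} hx hy => ⟨X.mul_mem hx.1 hy.1, by
          rw [map_mul, (hcm x hx.1 y hy.1).mul_pow, hx.2, hy.2, one_mul]⟩
        inv_mem' := fun {x} hx => ⟨X.inv_mem hx.1, by rw [map_inv, inv_pow, hx.2, inv_one]⟩ }
    have hNn : N.Normal := ⟨fun x hx g => ⟨hXn.conj_mem _ hx.1 g, by
      rw [map_mul, map_mul, map_inv, conj_pow, hx.2, mul_one, mul_inv_cancel]⟩⟩
    have hWN : W ≤ N := fun w hw => ⟨hWX.le hw, by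
      rw [show QuotientGroup.mk' W w = 1 from (QuotientGroup.eq_one_iff w).2 hw, one_pow]⟩
    obtain ⟨x, hxX, hxW⟩ := SetLike.exists_of_lt hWX
    obtain ⟨k, hk⟩ := hXp ⟨x, hxX⟩
    have hk' : x ^ p ^ k ∈ W := by
      have : x ^ p ^ k = 1 := by simpa using congrArg Subtype.val hk
      rw [this]; exact W.one_mem
    have hex : ∃ j, x ^ p ^ j ∈ W := ⟨k, hk'⟩
    obtain ⟨j, hj⟩ := Nat.exists_eq_succ_of_ne_zero (fun h0 => hxW (by
      have := Nat.find_spec hex; rwa [h0, pow_zero, pow_one] at this) : Nat.find hex ≠ 0)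
    have hjnot : x ^ p ^ j ∉ W := Nat.find_min hex (by omega)
    have hyN : x ^ p ^ j ∈ N := ⟨X.pow_mem hxX _, by
      rw [← map_pow, ← pow_mul, ← pow_succ]
      exact (QuotientGroup.eq_one_iff _).2 (by have := Nat.find_spec hex; rwa [hj] at this)⟩
    have hNX := hWirr N hNn hWN (fun y hy => hy.1) _ hyN hjnot
    intro y hy
    have := (hNX.ge hy).2
    rw [← map_pow] at this
    exact (QuotientGroup.eq_one_iff _).1 this
  -- `W` is central in `X`
  have hWXc : ∀ w ∈ W, ∀ x ∈ X, w * x = x * w := by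
    have h1 : ⁅⁅X, O⁆, W⁆ = ⊥ := by
      refine Subgroup.commutator_commutator_eq_bot_of_rotate ?_ ?_
      · rw [Subgroup.commutator_comm O W, hWO, Subgroup.commutator_bot_left]
      · exact le_bot_iff.1 ((Subgroup.commutator_mono (Subgroup.commutator_le_left W X) le_rfl).trans hWO.le)
    rw [hXX] at h1
    intro w hw x hx
    exact (commutatorElement_eq_one_iff_mul_comm.1
      (Subgroup.mem_bot.1 (h1 ▸ Subgroup.commutator_mem_commutator hx hw))).symm
  have hWab : IsMulCommutative W := ⟨⟨fun a b => Subtype.ext (hWXc a a.2 b (hWX.le b.2))⟩⟩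
  have hWgood : Good p false W := ⟨hWab, fun h => absurd h (by decide)⟩
  have hconjX : ∀ (g : G), ∀ x ∈ X, g * x * g⁻¹ ∈ X := fun g x hx => hXn.conj_mem x hx g
  have hconjW : ∀ (g : G), ∀ x ∈ W, g * x * g⁻¹ ∈ W := fun g x hx => hWn.conj_mem x hx g
  have hcommW : ∀ (g : G), ∀ x ∈ W, ⁅g, x⁆ ∈ W := fun g x hx => by
    rw [commutatorElement_def]; exact W.mul_mem (hconjW g x hx) (W.inv_mem hx)
  -- the choice of `A`
  set n := Nat.card G + 1 with hn
  let U1 : Subgroup G → Subgroup G := fun A => W ⊓ Subgroup.centralizer ((A ⊓ K : Subgroup G) : Set G)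
  let key : Subgroup G → ℕ := fun A =>
    Nat.card (U1 A) * (n * n) + Nat.card (U1 A ⊓ A : Subgroup G) * n + Nat.card (W ⊓ A : Subgroup G)
  obtain ⟨A, ⟨hA, hAK⟩, hAmax⟩ := Set.exists_max_image {A | A ∈ maxGood p false (S : Subgroup G) ∧ ¬ A ≤ K}
    key (Set.toFinite _) ⟨A₀, hA₀, hA₀K⟩
  haveI := hA.2.1.1
  have hAc : ∀ a ∈ A, ∀ b ∈ A, a * b = b * a := fun a ha b hb => good_commute hA.2.1 ha hb
  have hAN : A ≤ Subgroup.normalizer (W : Set G) := hnz W hWn A
  have hWS : W ≤ (S : Subgroup G) := hWK.trans hKS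
  have hCWA : W ⊓ Subgroup.centralizer (A : Set G) ≤ A :=
    le_of_good_centralizing hA (inf_le_left.trans hWS)
      (Subgroup.le_centralizer_iff.1 inf_le_right) (fun h => absurd h (by decide))
  have hgoodB : ∀ B : Subgroup G, B ≤ A → Good p false (B ⊔ (W ⊓ Subgroup.centralizer (B : Set G))) :=
    fun B hB => good_sup (good_mono hB hA.2.1) (good_mono inf_le_left hWgood) inf_le_right
  have hmeas : ∀ B : Subgroup G, B ≤ A → Offender.measure W B ≤ Offender.measure W A := by
    intro B hB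
    refine (Offender.card_mul_le _ _).trans ?_
    rw [Offender.measure, mul_comm (Nat.card A)]
    refine Nat.mul_le_mul (Subgroup.card_le_of_le ?_)
      (hA.2.2 _ (sup_le (hB.trans hA.1) (inf_le_left.trans hWS)) (hgoodB B hB))
    exact le_inf (inf_le_right.trans inf_le_left) fun x hx => Subgroup.mem_centralizer_iff.2 fun a ha =>
      hAc a ha x (hB hx.1)
  -- replacement
  have hrep : ∀ U : Subgroup G, U ≤ W →
      (∀ B : Subgroup G, B = A ⊓ Subgroup.centralizer ((⁅U, A⁆ : Subgroup G) : Set G) →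
        B ⊔ (W ⊓ Subgroup.centralizer (B : Set G)) ∈ maxGood p false (S : Subgroup G) ∧
        W ⊓ Subgroup.centralizer (B : Set G) = ⁅U, A⁆ ⊔ (W ⊓ Subgroup.centralizer (A : Set G)) ∧
        (B ≤ K ∨ ⁅U, A⁆ ≤ A)) := by
    intro U hU B hB
    obtain ⟨hm, hC⟩ := Offender.replacement_subgroup hWab hAN
      (by rw [Subgroup.commutator_eq_bot_iff_le_centralizer.2 fun a ha => Subgroup.mem_centralizer_iff.2
        fun b hb => hAc b hb a ha]; exact bot_le) hmeas U hU
    rw [← hB] at hm hC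
    set M := B ⊔ (W ⊓ Subgroup.centralizer (B : Set G)) with hM
    have hBA : B ≤ A := hB.le.trans inf_le_left
    have hMS : M ≤ (S : Subgroup G) := sup_le (hBA.trans hA.1) (inf_le_left.trans hWS)
    have hcard : Nat.card A ≤ Nat.card M := by
      have h1 := Offender.card_mul_le B (W ⊓ Subgroup.centralizer (B : Set G))
      rw [show Nat.card B * Nat.card ↥(W ⊓ Subgroup.centralizer (B : Set G)) = Offender.measure W A from hm,
        Offender.measure, mul_comm (Nat.card ↥(B ⊓ _))] at h1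
      refine Nat.le_of_mul_le_mul_right (h1.trans (Nat.mul_le_mul_left _ (Subgroup.card_le_of_le ?_))) Nat.card_pos
      exact le_inf (inf_le_right.trans inf_le_left) fun x hx => Subgroup.mem_centralizer_iff.2 fun a ha =>
        hAc a ha x (hBA hx.1)
    have hMmax : M ∈ maxGood p false (S : Subgroup G) :=
      ⟨hMS, hgoodB B hBA, fun C h1 h2 => (hA.2.2 C h1 h2).trans hcard⟩
    refine ⟨hMmax, hC, ?_⟩
    by_contra hcon
    push Not at hcon
    have hMK : ¬ M ≤ K := fun h => hcon.1 (le_sup_left.trans h)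
    have hAW : A ⊓ W ≤ M := fun x hx => by
      refine Subgroup.mem_sup_right ⟨hx.2, Subgroup.mem_centralizer_iff.2 fun b hb => hAc b (hBA hb) x hx.1⟩
    have hU1 : U1 A ≤ U1 M := by
      refine fun u hu => ⟨hu.1, Subgroup.mem_centralizer_iff.2 fun m hm' => ?_⟩
      obtain ⟨β, hβ, w, hw, rfl⟩ : ∃ β ∈ B, ∃ w ∈ W ⊓ Subgroup.centralizer (B : Set G), β * w = m := by
        have : m ∈ B ⊔ (W ⊓ Subgroup.centralizer (B : Set G)) := hm'.1
        rw [← SetLike.mem_coe, Subgroup.coe_mul_of_left_le_normalizer_right] at this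
        · obtain ⟨β, hβ, w, hw, e⟩ := Set.mem_mul.1 this
          exact ⟨β, hβ, w, hw, e⟩
        · intro β hβ
          refine Subgroup.mem_normalizer_fintype fun w hw => ?_
          rw [Subgroup.mem_centralizer_iff.1 hw.2 β hβ, mul_inv_cancel_right]
          exact hw
      have hβK : β ∈ A ⊓ K := ⟨hBA hβ, by simpa using K.mul_mem hm'.2 (K.inv_mem (hWK hw.1))⟩
      calc β * w * u = β * (u * w) := by rw [mul_assoc, hWXc w hw.1 u (hWX.le hu.1)]
        _ = u * (β * w) := by rw [← mul_assoc, Subgroup.mem_centralizer_iff.1 hu.2 β hβK, mul_assoc]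
    have hlt : Nat.card (W ⊓ A : Subgroup G) < Nat.card (W ⊓ M : Subgroup G) := by
      have hle : W ⊓ A ≤ W ⊓ M := le_inf inf_le_left fun x hx => hAW ⟨hx.2, hx.1⟩
      refine lt_of_le_of_ne (Subgroup.card_le_of_le hle) fun e => hcon.2 ?_
      have heq := Subgroup.eq_of_le_of_card_ge hle e.ge
      intro x hx
      have hxW : x ∈ W ⊓ Subgroup.centralizer (B : Set G) := hC.ge (Subgroup.mem_sup_left hx)
      exact (heq.ge ⟨hxW.1, Subgroup.mem_sup_right hxW⟩).2
    have h1 := Subgroup.card_le_of_le hU1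
    have h2 : Nat.card (U1 M) = Nat.card (U1 A) → Nat.card (U1 A ⊓ A : Subgroup G) ≤ Nat.card (U1 M ⊓ M : Subgroup G) :=
      fun _ => Subgroup.card_le_of_le (le_inf (inf_le_left.trans hU1) fun x hx => hAW ⟨hx.2, hx.1.1⟩)
    have h3 := hAmax M ⟨hMmax, hMK⟩
    have hb1 : Nat.card (U1 A ⊓ A : Subgroup G) < n := Nat.lt_succ_of_le (Subgroup.card_le_card_group _)
    have hb2 : Nat.card (W ⊓ A : Subgroup G) < n := Nat.lt_succ_of_le (Subgroup.card_le_card_group _)
    simp only [key] at h3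
    rcases h1.eq_or_lt with h | h
    · have := h2 h.symm
      rw [← h] at h3
      have := Nat.mul_le_mul_right n this
      omega
    · have h5 : (Nat.card (U1 A) + 1) * (n * n) ≤ Nat.card (U1 M) * (n * n) := Nat.mul_le_mul_right _ h
      have h6 : (Nat.card (U1 A ⊓ A : Subgroup G) + 1) * n ≤ n * n := Nat.mul_le_mul_right _ hb1
      rw [add_mul, one_mul] at h5 h6
      omega
  -- quadratic on `U1`
  have hquad1 : ∀ u ∈ U1 A, ∀ a ∈ A, ∀ b ∈ A, ⁅b, ⁅a, u⁆⁆ = 1 := by
    have hmem : ∀ u ∈ U1 A, ∀ a ∈ A, ⁅a, u⁆ ∈ ⁅U1 A, A⁆ := fun u hu a ha => by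
      rw [Subgroup.commutator_comm]; exact Subgroup.commutator_mem_commutator ha hu
    obtain ⟨-, hC, hor⟩ := hrep (U1 A) inf_le_left _ rfl
    intro u hu a ha b hb
    rcases hor with hBK | hle
    · suffices h0 : ⁅U1 A, A⁆ = ⊥ by
        have := hmem u hu a ha
        rw [h0, Subgroup.mem_bot] at this
        rw [this, commutatorElement_one_right]
      have hUC : U1 A ≤ ⁅U1 A, A⁆ ⊔ (W ⊓ Subgroup.centralizer (A : Set G)) := by
        refine le_trans ?_ hC.le
        exact fun x hx => ⟨hx.1, Subgroup.mem_centralizer_iff.2 fun β hβ =>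
          Subgroup.mem_centralizer_iff.1 hx.2 β ⟨hβ.1, hBK hβ⟩⟩
      refine eq_bot_of_le_commutator S.2 ((Subgroup.commutator_mono (inf_le_left.trans hWS) hA.1).trans ?_) hA.1 ?_
      · exact Subgroup.commutator_le.2 fun x hx y hy => (S : Subgroup G).mul_mem ((S : Subgroup G).mul_mem
          ((S : Subgroup G).mul_mem hx hy) ((S : Subgroup G).inv_mem hx)) ((S : Subgroup G).inv_mem hy)
      · refine Subgroup.commutator_le.2 fun x hx y hy => ?_
        have hTW : ⁅U1 A, A⁆ ≤ W :=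
          (Subgroup.commutator_mono inf_le_left le_rfl).trans (Subgroup.commutator_le.2 fun w hw g _ => by
            rw [← commutatorElement_inv]; exact W.inv_mem (hcommW g w hw))
        have hx' := hUC hx
        rw [← SetLike.mem_coe, Subgroup.coe_mul_of_left_le_normalizer_right] at hx'
        · obtain ⟨t, ht, c, hc, rfl⟩ := Set.mem_mul.1 hx'
          have hcy : ⁅c, y⁆ = 1 :=
            commutatorElement_eq_one_iff_mul_comm.2 (Subgroup.mem_centralizer_iff.1 hc.2 y hy).symm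
          have : ⁅t * c, y⁆ = (t * ⁅c, y⁆ * t⁻¹) * ⁅t, y⁆ := by simp only [commutatorElement_def]; group
          rw [this, hcy, mul_one, mul_inv_cancel, one_mul]
          exact Subgroup.commutator_mem_commutator ht hy
        · intro t ht
          refine Subgroup.mem_normalizer_fintype fun w hw => ?_
          rw [hWXc t (hTW ht) w (hWX.le hw.1), mul_inv_cancel_right]
          exact hw
    · exact commutatorElement_eq_one_iff_mul_comm.2 (hAc b hb _ (hle (hmem u hu a ha)))
  -- the module `M`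
  letI : CommGroup (↥X ⧸ W.subgroupOf X) :=
    { (inferInstance : Group (↥X ⧸ W.subgroupOf X)) with
      mul_comm := fun a b => by
        induction a using QuotientGroup.induction_on with | _ x =>
        induction b using QuotientGroup.induction_on with | _ y =>
        rw [← QuotientGroup.mk_mul, ← QuotientGroup.mk_mul, QuotientGroup.eq, Subgroup.mem_subgroupOf]
        push_cast
        rw [show ((x : G) * y)⁻¹ * (y * x) = ⁅(y : G)⁻¹, (x : G)⁻¹⁆ by rw [commutatorElement_def]; group]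
        exact hXKW _ (X.inv_mem y.2) _ (hXK (X.inv_mem x.2)) }
  let MM := Additive (↥X ⧸ W.subgroupOf X)
  let toM : X → MM := fun x => Additive.ofMul (QuotientGroup.mk x)
  have toM_surj : Function.Surjective toM := fun m => by
    obtain ⟨x, hx⟩ := QuotientGroup.mk_surjective (Additive.toMul m)
    exact ⟨x, by show Additive.ofMul _ = m; rw [hx]; rfl⟩
  have toM_eq : ∀ x y : X, toM x = toM y ↔ (x : G)⁻¹ * y ∈ W := fun x y => by
    show (QuotientGroup.mk x : ↥X ⧸ W.subgroupOf X) = QuotientGroup.mk y ↔ _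
    rw [QuotientGroup.eq, Subgroup.mem_subgroupOf]
    rfl
  let Γ : G →* AddMonoid.End MM :=
    { toFun := fun g => MonoidHom.toAdditive (QuotientGroup.map (W.subgroupOf X) (W.subgroupOf X)
        (MulAut.conjNormal g : MulAut X).toMonoidHom (fun x hx => by
          rw [Subgroup.mem_comap, Subgroup.mem_subgroupOf]
          show (MulAut.conjNormal g x : G) ∈ W
          rw [MulAut.conjNormal_apply]; exact hconjW g _ hx))
      map_one' := AddMonoidHom.ext fun m => by
        obtain ⟨x, rfl⟩ := toM_surj m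
        exact (toM_eq _ _).2 (by simp)
      map_mul' := fun g h => AddMonoidHom.ext fun m => by
        obtain ⟨x, rfl⟩ := toM_surj m
        exact (toM_eq _ _).2 (by simp [mul_assoc]) }
  have hΓ : ∀ (g : G) (x : X), Γ g (toM x) = toM ⟨g * x * g⁻¹, hconjX g x x.2⟩ := fun g x =>
    (toM_eq _ _).2 (by simp [mul_assoc])
  have hpM : ∀ m : MM, p • m = 0 := fun m => by
    obtain ⟨x, rfl⟩ := toM_surj m
    show Additive.ofMul ((QuotientGroup.mk x : ↥X ⧸ W.subgroupOf X) ^ p) = Additive.ofMul 1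
    rw [← QuotientGroup.mk_pow]
    exact congrArg Additive.ofMul ((QuotientGroup.eq_one_iff _).2 (by
      rw [Subgroup.mem_subgroupOf, SubgroupClass.coe_pow]; exact hpowW _ x.2))
  have hΓK : ∀ k ∈ K, Γ k = 1 := fun k hk => AddMonoidHom.ext fun m => by
    obtain ⟨x, rfl⟩ := toM_surj m
    refine (hΓ k x).trans ((toM_eq _ _).2 ?_)
    show (k * (x : G) * k⁻¹)⁻¹ * x ∈ W
    rw [show (k * (x : G) * k⁻¹)⁻¹ * x = ⁅k, (x : G)⁻¹⁆ by rw [commutatorElement_def]; group,
      ← commutatorElement_inv]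
    exact W.inv_mem (hXKW _ (X.inv_mem x.2) k hk)
  have hπ1 : ∀ g : G, π g = 1 → g ∈ K := fun g hg => (QuotientGroup.eq_one_iff g).1 hg
  have hcommΓ : ∀ r ∈ O, ∀ s ∈ O, Γ r * Γ s = Γ s * Γ r := fun r hr s hs => by
    have h : Γ ⁅r, s⁆ = 1 := hΓK _ (hπ1 _ (by
      rw [map_commutatorElement, commutatorElement_eq_one_iff_mul_comm]
      exact hRcomm _ (hOR ▸ Subgroup.mem_map_of_mem π hr) _ (hOR ▸ Subgroup.mem_map_of_mem π hs)))
    calc Γ r * Γ s = Γ ⁅r, s⁆ * (Γ s * Γ r) := by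
          rw [← map_mul, ← map_mul, ← map_mul, commutatorElement_def]; congr 1; group
      _ = Γ s * Γ r := by rw [h, one_mul]
  have hord : ∀ r ∈ O, ∃ m : ℕ, m.Coprime p ∧ Γ r ^ m = 1 := fun r hr => by
    refine ⟨Nat.card R, hRp, ?_⟩
    rw [← map_pow]
    refine hΓK _ (hπ1 _ ?_)
    have : (⟨π r, hOR ▸ Subgroup.mem_map_of_mem π hr⟩ : R) ^ Nat.card R = 1 := pow_card_eq_one'
    have h2 := congrArg Subtype.val this
    rw [SubgroupClass.coe_pow] at h2
    rw [map_pow]
    exact h2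
  have hmove : ∃ a ∈ A, ∃ r ∈ O, Γ (a * r * a⁻¹) ≠ Γ r := by
    by_contra hno
    push Not at hno
    set O0 := Γ.ker ⊓ O with hO0
    have hn0 : (O0.map π).Normal :=
      (Subgroup.normal_inf_normal Γ.ker O).map π (QuotientGroup.mk'_surjective K)
    rcases hdich (O0.map π) (hOR ▸ Subgroup.map_mono inf_le_right) hn0 with h0 | h1
    · apply hAK
      intro a ha
      refine hfaith a (hA.1 ha) (Subgroup.mem_centralizer_iff.2 ?_)
      intro r hr
      rw [SetLike.mem_coe, ← hOR] at hr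
      obtain ⟨r, hr, rfl⟩ := hr
      have hc : ⁅a, r⁆ ∈ O0 := by
        refine ⟨?_, ?_⟩
        · show Γ ⁅a, r⁆ = 1
          rw [commutatorElement_def, map_mul, hno a ha r hr, ← map_mul, mul_inv_cancel, map_one]
        · rw [commutatorElement_def]; exact O.mul_mem (hOn.conj_mem r hr a) (O.inv_mem hr)
      have h4 : π ⁅a, r⁆ ∈ O0.map π := Subgroup.mem_map_of_mem π hc
      rw [h0, Subgroup.mem_bot, map_commutatorElement, commutatorElement_eq_one_iff_mul_comm] at h4
      exact h4.symm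
    · have hall : ∀ r ∈ O, Γ r = 1 := fun r hr => by
        have : π r ∈ O0.map π := h1.ge (hOR ▸ Subgroup.mem_map_of_mem π hr)
        obtain ⟨r', hr', e⟩ := this
        have hk : r'⁻¹ * r ∈ K := hπ1 _ (by rw [map_mul, map_inv, e, inv_mul_cancel])
        rw [show r = r' * (r'⁻¹ * r) by group, map_mul, hΓK _ hk, mul_one]
        exact hr'.1
      apply hWX.not_ge
      conv_lhs => rw [← hXX]
      refine Subgroup.commutator_le.2 fun x hx r hr => ?_
      have h5 : Γ r (toM ⟨x⁻¹, X.inv_mem hx⟩) = toM ⟨x⁻¹, X.inv_mem hx⟩ := by rw [hall r hr]; rfl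
      rw [hΓ, toM_eq] at h5
      have h6 : r * x * r⁻¹ * x⁻¹ ∈ W := by
        convert h5 using 1; simp only; group
      rw [← commutatorElement_inv]
      exact W.inv_mem (by rw [commutatorElement_def]; exact h6)
  -- the form
  letI : CommGroup W := { (inferInstance : Group W) with mul_comm := fun a b => mul_comm' a b }
  have hcW : ∀ x y : X, ⁅(x : G), (y : G)⁆ ∈ W := fun x y => hXKW _ x.2 _ (hXK y.2)
  let φ : X → X →* W := fun x => MonoidHom.mk' (fun y => ⟨⁅(x : G), (y : G)⁆, hcW x y⟩) fun y z => Subtype.ext (by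
    show ⁅(x : G), (y : G) * z⁆ = ⁅(x : G), (y : G)⁆ * ⁅(x : G), (z : G)⁆
    have : ⁅(x : G), (y : G) * z⁆ = ⁅(x : G), (y : G)⁆ * ((y : G) * ⁅(x : G), (z : G)⁆ * (y : G)⁻¹) := by
      simp only [commutatorElement_def]; group
    rw [this, ← hWXc _ (hcW x z) y y.2, mul_inv_cancel_right])
  have hφker : ∀ x : X, W.subgroupOf X ≤ (φ x).ker := fun x y hy => Subtype.ext
    (commutatorElement_eq_one_iff_mul_comm.2 (hWXc _ hy _ x.2).symm)
  let φ2 : X →* (↥X ⧸ W.subgroupOf X →* W) := MonoidHom.mk'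
    (fun x => QuotientGroup.lift _ (φ x) (hφker x)) fun x y => MonoidHom.ext fun z => by
      induction z using QuotientGroup.induction_on with | _ z =>
      refine Subtype.ext ?_
      show ⁅(x : G) * y, (z : G)⁆ = ⁅(x : G), (z : G)⁆ * ⁅(y : G), (z : G)⁆
      have : ⁅(x : G) * y, (z : G)⁆ = ((x : G) * ⁅(y : G), (z : G)⁆ * (x : G)⁻¹) * ⁅(x : G), (z : G)⁆ := by
        simp only [commutatorElement_def]; group
      rw [this, ← hWXc _ (hcW y z) x x.2, mul_inv_cancel_right, hWXc _ (hcW y z) _ (hWX.le (hcW x z))]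
  let φ3 : ↥X ⧸ W.subgroupOf X →* (↥X ⧸ W.subgroupOf X →* W) := QuotientGroup.lift _ φ2 fun x hx =>
    MonoidHom.ext fun z => by
      induction z using QuotientGroup.induction_on with | _ z =>
      exact Subtype.ext (commutatorElement_eq_one_iff_mul_comm.2 (hWXc _ hx _ z.2))
  let β : MM →+ MM →+ Additive W := AddMonoidHom.mk' (fun m => MonoidHom.toAdditive (φ3 m.toMul)) fun m n =>
    AddMonoidHom.ext fun k => by
      show Additive.ofMul (φ3 (m.toMul * n.toMul) k.toMul) = _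
      rw [map_mul]; rfl
  have hβ : ∀ x y : X, β (toM x) (toM y) = Additive.ofMul ⟨⁅(x : G), (y : G)⁆, hcW x y⟩ := fun x y => rfl
  have halt : ∀ m, β m m = 0 := fun m => by
    obtain ⟨x, rfl⟩ := toM_surj m
    rw [hβ]
    exact congrArg Additive.ofMul (Subtype.ext (commutatorElement_self _))
  have hinv : ∀ r ∈ O, ∀ m n, β (Γ r m) (Γ r n) = β m n := fun r hr m n => by
    obtain ⟨x, rfl⟩ := toM_surj m
    obtain ⟨y, rfl⟩ := toM_surj n
    rw [hΓ, hΓ, hβ, hβ]
    refine congrArg Additive.ofMul (Subtype.ext ?_)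
    show ⁅r * x * r⁻¹, r * y * r⁻¹⁆ = ⁅(x : G), (y : G)⁆
    rw [show ⁅r * x * r⁻¹, r * y * r⁻¹⁆ = r * ⁅(x : G), (y : G)⁆ * r⁻¹ by simp only [commutatorElement_def]; group]
    have := commutatorElement_eq_one_iff_mul_comm.1
      (Subgroup.mem_bot.1 (hWO ▸ Subgroup.commutator_mem_commutator (hcW x y) hr))
    rw [← this, mul_inv_cancel_right]
  obtain ⟨a, ha, U, hcyc, hUinv, hap, hiso, m3, hm3, m4, hm4, he3, he34, he4⟩ :=
    exists_chain hp5 hpM Γ O hcommΓ hord A hAc (S.2.to_le hA.1) (fun g _ r hr => hOn.conj_mem r hr g) hmove β halt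
      hinv
  set δ := fun m => Γ a m - m with hδ
  obtain ⟨l3, hl3⟩ := toM_surj m3
  obtain ⟨l4, hl4⟩ := toM_surj m4
  have hdX : ∀ x ∈ X, ⁅a, x⁆ ∈ X := fun x hx => by
    rw [commutatorElement_def]; exact X.mul_mem (hconjX a x hx) (X.inv_mem hx)
  let d : X → X := fun x => ⟨⁅a, (x : G)⁆, hdX x x.2⟩
  have hd : ∀ x, toM (d x) = δ (toM x) := fun x => by
    simp only [hδ, hΓ]
    rw [eq_sub_iff_add_eq]
    show Additive.ofMul (QuotientGroup.mk (d x) * QuotientGroup.mk x : ↥X ⧸ W.subgroupOf X) = _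
    rw [← QuotientGroup.mk_mul]
    refine (toM_eq (d x * x) _).2 ?_
    show (⁅a, (x : G)⁆ * x)⁻¹ * (a * x * a⁻¹) ∈ W
    rw [commutatorElement_def]
    convert W.one_mem using 1
    group
  have hdn : ∀ (k : ℕ) x, toM (d^[k] x) = δ^[k] (toM x) := by
    intro k
    induction k with
    | zero => intro x; rfl
    | succ k ih => intro x; rw [Function.iterate_succ_apply, Function.iterate_succ_apply, ih, hd]
  have hcomm_swap : ∀ c ∈ A, ∀ b ∈ A, ∀ y ∈ X, ⁅c, y⁆ ∈ W → ⁅c, ⁅b, y⁆⁆ = ⁅b, ⁅c, y⁆⁆ := fun c hc b hb y hy h =>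
    comm_swap hWX.le hWXc (hAc b hb c hc) hy (hconjX b) (hconjW b) h
  have hW_of_fix : ∀ (c : G) (x : X), Γ c (toM x) = toM x → ⁅c, (x : G)⁆ ∈ W := fun c x h => by
    have h' := ((hΓ c x).symm.trans h).symm
    rw [toM_eq] at h'
    have : ⁅c, (x : G)⁆ = (x : G) * ((x : G)⁻¹ * (c * x * c⁻¹)) * (x : G)⁻¹ := by
      rw [commutatorElement_def]; group
    rw [this]; exact hconjW _ _ h'
  obtain ⟨hMmax, hC, hor⟩ := hrep W le_rfl _ rfl
  rcases hor with hBK | hle
  · -- first case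
    set B := A ⊓ Subgroup.centralizer ((⁅W, A⁆ : Subgroup G) : Set G) with hBdef
    set y := d^[3] l4 with hy
    have hcent : ∀ c ∈ B, c * (y : G) = (y : G) * c := by
      intro c hc
      have hcA : c ∈ A := hc.1
      have hall : ∀ z ∈ X, ⁅c, z⁆ ∈ W := fun z hz => by
        rw [← commutatorElement_inv]; exact W.inv_mem (hXKW z hz c (hBK hc))
      set w := ⁅c, (l4 : G)⁆ with hw
      have hwW : w ∈ W := hall _ l4.2
      have hdw : ⁅a, w⁆ ∈ U1 A := by
        refine ⟨hcommW a w hwW, Subgroup.mem_centralizer_iff.2 fun a0 ha0 => ?_⟩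
        rw [← commutatorElement_eq_one_iff_mul_comm]
        rw [hcomm_swap a0 ha0.1 a ha w (hWX.le hwW) (hcommW a0 w hwW)]
        have hz : ⁅a0, (l4 : G)⁆ ∈ W := by
          rw [← commutatorElement_inv]; exact W.inv_mem (hXKW _ l4.2 a0 ha0.2)
        rw [hw, ← hcomm_swap c hcA a0 ha0.1 _ l4.2 (hall _ l4.2),
          ← hcomm_swap c hcA a ha _ (hWX.le hz) (hall _ (hWX.le hz)), commutatorElement_eq_one_iff_mul_comm]
        exact (Subgroup.mem_centralizer_iff.1 hc.2 _ (by
          rw [Subgroup.commutator_comm]; exact Subgroup.commutator_mem_commutator ha hz)).symm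
      have hq := hquad1 _ hdw a ha a ha
      show c * (d (d (d l4)) : G) = (d (d (d l4)) : G) * c
      rw [← commutatorElement_eq_one_iff_mul_comm]
      show ⁅c, ⁅a, ⁅a, ⁅a, (l4 : G)⁆⁆⁆⁆ = 1
      rw [hcomm_swap c hcA a ha _ (hdX _ (hdX _ l4.2)) (hall _ (hdX _ (hdX _ l4.2))),
        hcomm_swap c hcA a ha _ (hdX _ l4.2) (hall _ (hdX _ l4.2)), hcomm_swap c hcA a ha _ l4.2 hwW]
      exact hq
    have hyM : (y : G) ∈ B ⊔ (W ⊓ Subgroup.centralizer (B : Set G)) := by
      refine mem_of_maxGood hMmax (hKS (hXK y.2)) (fun m hm => ?_) (fun h => absurd h (by decide))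
      have hle : B ⊔ (W ⊓ Subgroup.centralizer (B : Set G)) ≤ Subgroup.centralizer ({(y : G)} : Set G) :=
        sup_le (fun b hb => Subgroup.mem_centralizer_singleton_iff.2 (hcent b hb))
          (fun w hw => Subgroup.mem_centralizer_singleton_iff.2 (hWXc w hw.1 _ y.2))
      exact Subgroup.mem_centralizer_singleton_iff.1 (hle hm)
    rw [hC, ← SetLike.mem_coe] at hyM
    have hfix : ∀ z ∈ B ⊔ (⁅W, A⁆ ⊔ (W ⊓ Subgroup.centralizer (A : Set G))), ∀ hz : z ∈ X,
        Γ a (toM ⟨z, hz⟩) = toM ⟨z, hz⟩ := by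
      intro z hz hzX
      rw [hΓ, toM_eq]
      show (a * z * a⁻¹)⁻¹ * z ∈ W
      have hq : ∀ u ∈ B ⊔ (⁅W, A⁆ ⊔ (W ⊓ Subgroup.centralizer (A : Set G))),
          QuotientGroup.mk' W (a * u * a⁻¹) = QuotientGroup.mk' W u := by
        intro u hu
        have hle : B ⊔ (⁅W, A⁆ ⊔ (W ⊓ Subgroup.centralizer (A : Set G))) ≤
            MonoidHom.eqLocus ((QuotientGroup.mk' W).comp (MulAut.conj a).toMonoidHom) (QuotientGroup.mk' W) := by
          refine sup_le ?_ (sup_le ?_ ?_)
          · intro b hb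
            show QuotientGroup.mk' W (a * b * a⁻¹) = _
            rw [hAc a ha b hb.1, mul_inv_cancel_right]
          all_goals
            intro b hb
            have hbW : b ∈ W := by
              first
                | exact hb.1
                | exact (Subgroup.commutator_le.2 fun w hw g _ => by
                    rw [← commutatorElement_inv]; exact W.inv_mem (hcommW g w hw)) hb
            show QuotientGroup.mk' W (a * b * a⁻¹) = _
            rw [show QuotientGroup.mk' W (a * b * a⁻¹) = 1 from (QuotientGroup.eq_one_iff _).2 (hconjW a b hbW),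
              show QuotientGroup.mk' W b = 1 from (QuotientGroup.eq_one_iff b).2 hbW]
        exact hle hu
      exact QuotientGroup.eq.1 (hq z hz)
    apply he4
    rw [Function.iterate_succ_apply']
    show δ (δ^[3] m4) = 0
    rw [← hl4, ← hdn]
    exact sub_eq_zero.2 (hfix _ hyM y.2)
  · -- second case
    let A1 : Subgroup G :=
      { carrier := {t | t ∈ A ∧ ∀ m ∈ U, Γ t m = m}
        one_mem' := ⟨A.one_mem, fun m _ => by rw [map_one]; rfl⟩
        mul_mem' := fun {s t} hs ht => ⟨A.mul_mem hs.1 ht.1, fun m hm => by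
          rw [map_mul]; show Γ s (Γ t m) = m; rw [ht.2 m hm, hs.2 m hm]⟩
        inv_mem' := fun {t} ht => ⟨A.inv_mem ht.1, fun m hm => by
          conv_lhs => rw [← ht.2 m hm]
          show (Γ t⁻¹ * Γ t) m = m
          rw [← map_mul, inv_mul_cancel, map_one]; rfl⟩ }
    have hA1A : A1 ≤ A := fun t ht => ht.1
    have hcardA : Nat.card A ≤ p * Nat.card A1 := by
      have hcov : ∀ t : A, ∃ i : Fin p, (t : G) * a ^ (i : ℕ) ∈ A1 := fun t => by
        obtain ⟨i, hi⟩ := hcyc t t.2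
        refine ⟨⟨i % p, Nat.mod_lt _ hp.out.pos⟩, A.mul_mem t.2 (A.pow_mem ha _), fun m hm => ?_⟩
        have hpk : ∀ k : ℕ, Γ (a ^ (p * k)) m = m := by
          intro k
          induction k with
          | zero => rw [mul_zero, pow_zero, map_one]; rfl
          | succ k ih => rw [mul_add, mul_one, pow_add, map_mul]; show Γ _ (Γ _ m) = m; rw [hap m hm, ih]
        have h := hi m hm
        rw [show a ^ i = a ^ (i % p) * a ^ (p * (i / p)) by rw [← pow_add, Nat.mod_add_div], ← mul_assoc, map_mul] at h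
        rw [show Γ ((t : G) * a ^ (i % p)) m = Γ ((t : G) * a ^ (i % p)) (Γ (a ^ (p * (i / p))) m) by rw [hpk]]
        exact h
      choose i hi using hcov
      refine (Nat.card_le_card_of_injective (fun t : A => ((i t, ⟨_, hi t⟩) : Fin p × A1)) ?_).trans ?_
      · intro s t hst
        simp only [Prod.mk.injEq, Subtype.mk.injEq] at hst
        rw [hst.1] at hst
        exact Subtype.ext (mul_right_cancel hst.2)
      · rw [Nat.card_prod, Nat.card_fin]
    set y3 := d^[2] l3 with hy3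
    set y4 := d^[2] l4 with hy4
    have hcent : ∀ (l : X), toM l ∈ U → ∀ c ∈ A1, c * (d^[2] l : G) = (d^[2] l : G) * c := by
      intro l hl c hc
      have hU' : ∀ x : X, toM x ∈ U → ⁅c, (x : G)⁆ ∈ W := fun x hx => hW_of_fix c x (hc.2 _ hx)
      have hdU : toM (d l) ∈ U := by rw [hd]; exact U.sub_mem (hUinv _ hl) hl
      show c * (d (d l) : G) = (d (d l) : G) * c
      rw [← commutatorElement_eq_one_iff_mul_comm]
      show ⁅c, ⁅a, ⁅a, (l : G)⁆⁆⁆ = 1
      rw [hcomm_swap c hc.1 a ha _ (hdX _ l.2) (hU' (d l) hdU),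
        hcomm_swap c hc.1 a ha _ l.2 (hU' l hl), commutatorElement_eq_one_iff_mul_comm]
      exact hAc a ha _ (hle (by
        rw [Subgroup.commutator_comm]; exact Subgroup.commutator_mem_commutator ha (hU' l hl)))
    have hd2U : ∀ (l : X), toM l ∈ U → toM (d^[2] l) ∈ U := fun l hl => by
      rw [hdn]
      show δ (δ (toM l)) ∈ U
      have h1 : δ (toM l) ∈ U := U.sub_mem (hUinv _ hl) hl
      exact U.sub_mem (hUinv _ h1) h1
    have hl3U : toM l3 ∈ U := hl3 ▸ hm3
    have hl4U : toM l4 ∈ U := hl4 ▸ hm4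
    have h34 : (y3 : G) * y4 = y4 * y3 := by
      have h := hiso _ (hd2U l3 hl3U) _ (hd2U l4 hl4U)
      rw [hβ] at h
      exact commutatorElement_eq_one_iff_mul_comm.1 (congrArg Subtype.val h :)
    set A2 := Subgroup.closure ((A1 : Set G) ∪ {(y3 : G)}) with hA2
    set A3 := Subgroup.closure ((A1 : Set G) ∪ {(y3 : G), (y4 : G)}) with hA3
    have hgen : ∀ x ∈ (A1 : Set G) ∪ {(y3 : G), (y4 : G)}, x ∈ (S : Subgroup G) := by
      rintro x (hx | rfl | rfl)
      exacts [hA.1 (hA1A hx), hKS (hXK y3.2), hKS (hXK y4.2)]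
    have hgood3 : Good p false A3 := by
      refine good_closure ?_ (fun h => absurd h (by decide))
      rintro x (hx | rfl | rfl) z (hz | rfl | rfl)
      exacts [hAc x (hA1A hx) z (hA1A hz), hcent l3 hl3U x hx, hcent l4 hl4U x hx, (hcent l3 hl3U z hz).symm,
        rfl, h34, (hcent l4 hl4U z hz).symm, h34.symm, rfl]
    have hA3S : A3 ≤ (S : Subgroup G) := (Subgroup.closure_le _).2 hgen
    have hA23 : A2 ≤ A3 :=
      Subgroup.closure_mono (Set.union_subset_union_right _ (Set.singleton_subset_iff.2 (Or.inl rfl)))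
    have h12 : A1 < A2 := by
      refine lt_of_le_not_ge (fun x hx => Subgroup.subset_closure (Or.inl hx)) fun h => he3 ?_
      have hy : (y3 : G) ∈ A := hA1A (h (Subgroup.subset_closure (Or.inr rfl)))
      rw [← hl3, ← hdn]
      show toM (d y3) = 0
      rw [show d y3 = 1 from Subtype.ext (commutatorElement_eq_one_iff_mul_comm.2 (hAc a ha _ hy))]
      rfl
    have h23 : A2 < A3 := by
      refine lt_of_le_not_ge hA23 fun h => he4 ?_
      have hmem : (y4 : G) ∈ A1 ⊔ Subgroup.zpowers (y3 : G) := by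
        have h' := h (Subgroup.subset_closure (Or.inr (Or.inr rfl)))
        rwa [hA2, Subgroup.closure_union, Subgroup.closure_eq, ← Subgroup.zpowers_eq_closure] at h'
      rw [← SetLike.mem_coe, Subgroup.coe_mul_of_left_le_normalizer_right] at hmem
      · obtain ⟨c, hc, z, hz, hcz⟩ := Set.mem_mul.1 hmem
        obtain ⟨k, rfl⟩ := Subgroup.mem_zpowers_iff.1 hz
        have hcX : c ∈ X := by
          rw [show c = (y4 : G) * ((y3 : G) ^ k)⁻¹ by rw [← hcz, mul_inv_cancel_right]]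
          exact X.mul_mem y4.2 (X.inv_mem (X.zpow_mem y3.2 k))
        have e : toM y4 = toM ⟨c, hcX⟩ + k • toM y3 := by
          show Additive.ofMul (QuotientGroup.mk y4 : ↥X ⧸ W.subgroupOf X) =
            Additive.ofMul ((QuotientGroup.mk ⟨c, hcX⟩ : ↥X ⧸ W.subgroupOf X) * (QuotientGroup.mk y3) ^ k)
          rw [← QuotientGroup.mk_zpow, ← QuotientGroup.mk_mul]
          exact congrArg _ (congrArg _ (Subtype.ext (by push_cast; exact hcz.symm)))
        have hc0 : δ (toM ⟨c, hcX⟩) = 0 := by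
          rw [← hd, show d ⟨c, hcX⟩ = 1 from
            Subtype.ext (commutatorElement_eq_one_iff_mul_comm.2 (hAc a ha _ (hA1A hc)))]
          rfl
        let δh : MM →+ MM := AddMonoidHom.mk' δ fun x z => by simp only [hδ, map_add]; abel
        have h40 : δh (δh (toM y4)) = 0 := by
          rw [e, map_add, map_add, show δh (toM ⟨c, hcX⟩) = 0 from hc0, map_zero, zero_add, map_zsmul, map_zsmul]
          rw [show δh (δh (toM y3)) = δ^[4] m3 by rw [← hl3, hy3, hdn]; rfl, he34, smul_zero]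
        rw [← h40, ← hl4, hy4, hdn]
        rfl
      · intro c hc
        refine Subgroup.centralizer_le_normalizer _ (Subgroup.mem_centralizer_iff.2 fun z hz => ?_)
        obtain ⟨k, rfl⟩ := Subgroup.mem_zpowers_iff.1 hz
        exact (Commute.zpow_right (hcent l3 hl3U c hc : Commute c (y3 : G)) k).eq.symm
    have hgrow : ∀ H L : Subgroup G, H < L → L ≤ (S : Subgroup G) → p * Nat.card H ≤ Nat.card L := by
      intro H L h hL
      obtain ⟨i, hi⟩ := IsPGroup.iff_card.1 (S.2.to_le (h.le.trans hL))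
      obtain ⟨j, hj⟩ := IsPGroup.iff_card.1 (S.2.to_le hL)
      have hlt : Nat.card H < Nat.card L := lt_of_le_of_ne (Subgroup.card_le_of_le h.le) fun e =>
        h.ne (Subgroup.eq_of_le_of_card_ge h.le e.ge)
      rw [hi, hj] at hlt ⊢
      rw [← pow_succ']
      exact Nat.pow_le_pow_right hp.out.pos ((Nat.pow_lt_pow_iff_right hp.out.one_lt).1 hlt)
    have h1 := hgrow _ _ h12 (hA23.trans hA3S)
    have h2 := hgrow _ _ h23 hA3S
    have h3 := hA.2.2 A3 hA3S hgood3
    have h4 : p * (p * Nat.card A1) ≤ p * Nat.card A1 :=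
      (Nat.mul_le_mul_left p h1).trans (h2.trans (h3.trans hcardA))
    have h5 : 0 < p * Nat.card A1 := Nat.mul_pos hp.out.pos Nat.card_pos
    nlinarith

end CfsgLib.ZJFive
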