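import Mathlib

/-!
A polynomial chain of length five in a module for a coprime abelian group extended by an abelian `p`-group.
-/

set_option autoImplicit false
set_option linter.style.haveILetI false
set_option linter.unusedSectionVars false

namespace CfsgLib.ZJFive

section Ring

variable {S : Type*} [CommRing S]

theorem eq_zero_of_sq {q : ℕ} (hq : 2 ≤ q) (hS : ∀ x : S, x ^ q = x) {x : S} (h : x ^ 2 = 0) : x = 0 := by
  rw [← hS x, show q = 2 + (q - 2) by omega, pow_add, h, zero_mul]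

/-- An automorphism of odd order fixing `r + r⁻¹` and the products of the skew elements fixes `r`. -/
theorem fixed_of_skew {q : ℕ} (hq : 2 ≤ q) (hS : ∀ x : S, x ^ q = x) (σ : S →+* S) (z : S)
    (hsq : σ (z ^ 2) = z ^ 2) (hprod : σ (σ z * z) = σ z * z) : σ (σ z) = z := by
  have h1 : (σ z) ^ 2 = z ^ 2 := by rw [← map_pow]; exact hsq
  have h2 : (σ (σ z)) ^ 2 = z ^ 2 := by rw [← map_pow, h1, hsq]
  rw [map_mul] at hprod
  set d := σ (σ z) - z with hd
  have hd1 : σ z * d = 0 := by rw [hd]; linear_combination hprod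
  have hd2 : z * d = 0 := by
    apply eq_zero_of_sq hq hS
    calc (z * d) ^ 2 = (σ z) ^ 2 * d ^ 2 := by rw [h1]; ring
      _ = (σ z * d) ^ 2 := by ring
      _ = 0 := by rw [hd1]; ring
  have hd3 : d ^ 2 = 0 := by
    rw [hd] at hd2 ⊢
    linear_combination h2 - 2 * hd2
  exact sub_eq_zero.1 (eq_zero_of_sq hq hS hd3)

theorem pow_eq_self_mem {p : ℕ} [hp : Fact p.Prime] (ε : S) (hq : ∃ q : ℕ, 3 ≤ q ∧ ∀ x : S, x ^ q = x)
    (hεε : ε * ε = ε) (hε : ε ≠ 0) (hpS : (p : S) = 0) (F : Subring S)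
    (hdom : ∀ c ∈ F, ε * c = c → c ≠ 0 → ∃ c' ∈ F, c * c' = ε) {c : S} (hc : c ∈ F) (hεc : ε * c = c)
    (hcp : c ^ p = c) (hεF : ε ∈ F) : ∃ i : ℕ, c = i • ε := by
  obtain ⟨q, hq2, hS⟩ := hq
  have hεn : ∀ n : ℕ, ε ^ (n + 1) = ε := fun n => by
    induction n with
    | zero => simp
    | succ n ih => rw [pow_succ, ih, hεε]
  obtain ⟨m, hm, hεm⟩ : ∃ m : Ideal S, m.IsMaximal ∧ ε ∉ m := by
    by_contra h
    push Not at h
    have h1 : ε ∈ Ideal.jacobson (⊥ : Ideal S) := Ideal.mem_sInf.2 fun J hJ => h J hJ.2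
    rw [Ideal.mem_jacobson_bot] at h1
    have hu := h1 (-1)
    rw [mul_neg, mul_one, neg_add_eq_sub] at hu
    obtain ⟨v, hv⟩ := hu
    apply hε
    have h0 : (1 - ε) * ε = 0 := by rw [sub_mul, one_mul, hεε, sub_self]
    calc ε = (↑v⁻¹ * (↑v : S)) * ε := by rw [Units.inv_mul, one_mul]
      _ = ↑v⁻¹ * ((1 - ε) * ε) := by rw [hv, mul_assoc]
      _ = 0 := by rw [h0, mul_zero]
  haveI := hm
  letI := Ideal.Quotient.field m
  set φ := Ideal.Quotient.mk m
  have hφε : φ ε = 1 := by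
    have h0 : φ ε * φ ε = φ ε := by rw [← map_mul, hεε]
    have h1 : φ ε ≠ 0 := fun h => hεm (Ideal.Quotient.eq_zero_iff_mem.1 h)
    exact mul_left_cancel₀ h1 (by rw [h0, mul_one])
  haveI : CharP (S ⧸ m) p := by
    refine (CharP.charP_iff_prime_eq_zero hp.out).2 ?_
    rw [← map_natCast φ, hpS, map_zero]
  have h2 : φ c ∈ (⊥ : Subfield (S ⧸ m)) := by
    rw [Subfield.mem_bot_iff_pow_eq_self (F := S ⧸ m) (p := p), ← map_pow, hcp]
  obtain ⟨i, hi⟩ : ∃ i : ℕ, φ c = (i : S ⧸ m) := by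
    rw [← ZMod.fieldRange_castHom_eq_bot p] at h2
    obtain ⟨z, hz⟩ := h2
    exact ⟨z.val, by rw [← hz, ZMod.castHom_apply, ZMod.cast_eq_val]⟩
  refine ⟨i, ?_⟩
  by_contra hne
  have hd : c - i • ε ∈ F := F.sub_mem hc (F.toAddSubgroup.nsmul_mem hεF i)
  obtain ⟨c', -, hcc⟩ := hdom (c - i • ε) hd (by rw [mul_sub, hεc, mul_smul_comm, hεε]) (sub_ne_zero.2 hne)
  have := congrArg φ hcc
  rw [map_mul, map_sub, map_nsmul, hφε, hi, nsmul_eq_mul, mul_one, sub_self, zero_mul] at this
  exact zero_ne_one this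

/-- An abelian `p`-group of automorphisms has, for a nontrivial action, a translation of order `p`. -/
theorem exists_translation [Finite S] {p : ℕ} [hp : Fact p.Prime] {q : ℕ} (hq : 3 ≤ q)
    (hS : ∀ x : S, x ^ q = x) (hpS : (p : S) = 0) {A : Type*} [CommGroup A] [Finite A] (hA : IsPGroup p A)
    (σ : A →* (S →+* S)) (hne : ∃ a x, σ a x ≠ x) :
    ∃ (a : A) (ε u : S), ε ≠ 0 ∧ ε * ε = ε ∧ (∀ t, σ t ε = ε) ∧ σ a u = u + ε ∧
      ∀ t, ∃ i : ℕ, σ (t * a ^ i) u = u := by
  classical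
  haveI hnt : Nontrivial S := by
    obtain ⟨a, x, h⟩ := hne
    exact ⟨⟨σ a x, x, h⟩⟩
  have hnil : ∀ (t : A) (x : S), ∃ n : ℕ, (fun y => σ t y - y)^[n] x = 0 := by
    intro t x
    obtain ⟨k, hk⟩ := hA t
    haveI : CharP S p := by
      refine (CharP.charP_iff_prime_eq_zero hp.out).2 hpS
    refine ⟨p ^ k, ?_⟩
    let f : AddMonoid.End S := (σ t).toAddMonoidHom
    haveI : Nontrivial (AddMonoid.End S) := ⟨1, 0, fun h => by
      have := congrArg (fun g : AddMonoid.End S => g 1) h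
      exact one_ne_zero (α := S) this⟩
    haveI : CharP (AddMonoid.End S) p := (CharP.charP_iff_prime_eq_zero hp.out).2 <| AddMonoidHom.ext fun y => by
      show (p : AddMonoid.End S) y = 0
      rw [AddMonoid.End.natCast_apply, nsmul_eq_mul, hpS, zero_mul]
    have h1 : (f - 1) ^ p ^ k = 0 := by
      rw [sub_pow_char_pow_of_commute (p := p) (n := k) (h := Commute.one_right f), one_pow, sub_eq_zero]
      refine AddMonoidHom.ext fun y => ?_
      have hpow : ∀ n : ℕ, ∀ y, (f ^ n) y = σ (t ^ n) y := by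
        intro n
        induction n with
        | zero => intro y; simp
        | succ n ih => intro y; rw [pow_succ, pow_succ, map_mul]; exact ih _
      exact (hpow _ y).trans (by rw [hk, map_one]; rfl)
    have h2 : ∀ n : ℕ, ∀ y, ((f - 1) ^ n) y = (fun z => σ t z - z)^[n] y := by
      intro n
      induction n with
      | zero => intro y; rfl
      | succ n ih =>
        intro y
        rw [pow_succ, Function.iterate_succ_apply]
        exact ih _
    rw [← h2, h1]
    rfl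
  -- the orbit module
  let N : S → AddSubgroup S := fun x => AddSubgroup.closure (Set.range fun t => σ t x)
  have hNinv : ∀ x t, ∀ y ∈ N x, σ t y ∈ N x := by
    intro x t y hy
    have hle : N x ≤ (N x).comap (σ t).toAddMonoidHom := (AddSubgroup.closure_le _).2 <| by
      rintro _ ⟨s, rfl⟩
      exact AddSubgroup.subset_closure ⟨t * s, by show σ (t * s) x = σ t (σ s x); rw [map_mul]; rfl⟩
    exact hle hy
  obtain ⟨a₀, x₀, hx₀⟩ := hne
  obtain ⟨x, hx, hxmin⟩ := Set.exists_min_image {x : S | ∃ t, σ t x ≠ x} (fun x => Nat.card (N x))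
    (Set.toFinite _) ⟨x₀, a₀, hx₀⟩
  have hlow : ∀ t s, σ s (σ t x - x) = σ t x - x := by
    intro t s
    by_contra hns
    have hle : N (σ t x - x) ≤ (N x).map ((σ t).toAddMonoidHom - AddMonoidHom.id S) := by
      refine (AddSubgroup.closure_le _).2 ?_
      rintro _ ⟨r, rfl⟩
      refine ⟨σ r x, AddSubgroup.subset_closure ⟨r, rfl⟩, ?_⟩
      show σ t (σ r x) - σ r x = σ r (σ t x - x)
      rw [map_sub, ← RingHom.comp_apply, ← RingHom.comp_apply (σ r)]
      show (σ t * σ r) x - σ r x = (σ r * σ t) x - σ r x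
      rw [← map_mul, mul_comm, map_mul]
    have hlt : (N x).map ((σ t).toAddMonoidHom - AddMonoidHom.id S) < N x := by
      refine lt_of_le_of_ne ?_ fun heq => ?_
      · rintro _ ⟨y, hy, rfl⟩
        exact (N x).sub_mem (hNinv x t y hy) hy
      · -- the difference is onto, hence zero
        have hx0 : x ∈ N x := AddSubgroup.subset_closure ⟨1, by simp⟩
        have hinj : ∀ y ∈ N x, ∃ z ∈ N x, σ t z - z = y := fun y hy => by
          rw [← heq] at hy
          obtain ⟨z, hz, e⟩ := hy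
          exact ⟨z, hz, e⟩
        have hall : ∀ n : ℕ, ∀ y ∈ N x, ∃ z ∈ N x, (fun w => σ t w - w)^[n] z = y := by
          intro n
          induction n with
          | zero => exact fun y hy => ⟨y, hy, rfl⟩
          | succ n ih =>
            intro y hy
            obtain ⟨z, hz, hzy⟩ := ih y hy
            obtain ⟨w, hw, hwz⟩ := hinj z hz
            exact ⟨w, hw, by rw [Function.iterate_succ_apply]; simp only [hwz, hzy]⟩
        have hbound : ∃ n : ℕ, ∀ z : S, (fun w => σ t w - w)^[n] z = 0 := by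
          cases nonempty_fintype S
          choose f hf using hnil t
          refine ⟨Finset.univ.sup f, fun z => ?_⟩
          obtain ⟨m, hm⟩ := Nat.exists_eq_add_of_le (Finset.le_sup (f := f) (Finset.mem_univ z))
          rw [hm, add_comm, Function.iterate_add_apply, hf z]
          exact Function.iterate_fixed (by simp) m
        obtain ⟨n, hn⟩ := hbound
        obtain ⟨z, -, hz⟩ := hall n x hx0
        rw [hn z] at hz
        obtain ⟨s', hs'⟩ := hx
        exact hs' (by rw [← hz, map_zero])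
    have h3 : Nat.card ((N x).map ((σ t).toAddMonoidHom - AddMonoidHom.id S)) < Nat.card (N x) := by
      refine lt_of_le_of_ne ((AddSubgroup.card_le_of_le hlt.le)) fun e => hlt.ne ?_
      exact AddSubgroup.eq_of_le_of_card_ge hlt.le e.ge
    exact absurd (hxmin _ ⟨s, hns⟩) (not_le.2 ((AddSubgroup.card_le_of_le hle).trans_lt h3))
  obtain ⟨a, ha⟩ := hx
  set c0 := σ a x - x with hc0
  have hc0ne : c0 ≠ 0 := sub_ne_zero.2 ha
  let F : Subring S := ⨅ t : A, (σ t).eqLocus (RingHom.id S)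
  have hF : ∀ {y : S}, y ∈ F ↔ ∀ t, σ t y = y := fun {y} => by
    simp only [F, Subring.mem_iInf]
    rfl
  have hc0F : c0 ∈ F := hF.2 (hlow a)
  have hidem : ∀ c : S, c ^ (q - 1) * c ^ (q - 1) = c ^ (q - 1) := fun c => by
    rw [← pow_add, show q - 1 + (q - 1) = q + (q - 2) by omega, pow_add, hS, ← pow_succ',
      show q - 2 + 1 = q - 1 by omega]
  have hself : ∀ c : S, c ^ (q - 1) * c = c := fun c => by
    rw [← pow_succ, show q - 1 + 1 = q by omega, hS]
  -- a minimal fixed idempotent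
  set ε0 := c0 ^ (q - 1) with hε0
  obtain ⟨ε, ⟨hεε, hεF, hεne, hεε0⟩, hεmin⟩ := Set.exists_min_image
    {e : S | e * e = e ∧ e ∈ F ∧ e ≠ 0 ∧ e * ε0 = e} (fun e => Set.ncard ((fun y => e * y) '' (F : Set S)))
    (Set.toFinite _) ⟨ε0, hidem c0, pow_mem hc0F _, fun h => hc0ne (by rw [← hself c0, ← hε0, h, zero_mul]),
      hidem c0⟩
  have hdom : ∀ c ∈ F, ε * c = c → c ≠ 0 → ∃ c' ∈ F, c * c' = ε := by
    intro c hc hεc hcne
    have hεe : ε * c ^ (q - 1) = c ^ (q - 1) := by
      rw [show q - 1 = (q - 2) + 1 by omega, pow_succ', ← mul_assoc, hεc]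
    have hmem : c ^ (q - 1) ∈ {e : S | e * e = e ∧ e ∈ F ∧ e ≠ 0 ∧ e * ε0 = e} :=
      ⟨hidem c, pow_mem hc _, fun h => hcne (by rw [← hself c, h, zero_mul]), by
        rw [← hεe, mul_comm ε, mul_assoc, hεε0]⟩
    have hsub : (fun y => c ^ (q - 1) * y) '' (F : Set S) ⊆ (fun y => ε * y) '' (F : Set S) := by
      rintro _ ⟨y, hy, rfl⟩
      exact ⟨c ^ (q - 1) * y, F.mul_mem (pow_mem hc _) hy, by simp only; rw [← mul_assoc, hεe]⟩
    have heq := Set.eq_of_subset_of_ncard_le hsub (hεmin _ hmem) (Set.toFinite _)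
    obtain ⟨y, -, hy⟩ : ε ∈ (fun y => c ^ (q - 1) * y) '' (F : Set S) := heq ▸ ⟨1, F.one_mem, mul_one ε⟩
    have h' : c ^ (q - 1) = ε := by
      rw [← hεe, mul_comm]
      conv_lhs => rw [← hy, ← mul_assoc, hidem c]
      exact hy
    exact ⟨c ^ (q - 2), pow_mem hc _, by rw [← pow_succ', show q - 2 + 1 = q - 1 by omega, h']⟩
  have hεfix : ∀ t, σ t ε = ε := hF.1 hεF
  -- candidates
  let C : Set (S × A) := {w | σ w.2 w.1 = w.1 + ε ∧ ∀ t, σ t w.1 - w.1 ∈ F ∧ ε * (σ t w.1 - w.1) = σ t w.1 - w.1}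
  have hmk : ∀ (y : S) (b : A), (∀ t, σ t y - y ∈ F) → ε * (σ b y - y) ≠ 0 →
      ∃ u, (u, b) ∈ C ∧ ∀ t, σ t y = y → σ t u = u := by
    intro y b hy hb
    obtain ⟨d, hd, hcd⟩ := hdom (ε * (σ b y - y)) (F.mul_mem hεF (hy b)) (by rw [← mul_assoc, hεε]) hb
    have key : ∀ t, σ t (ε * y * d) - ε * y * d = ε * (σ t y - y) * d := fun t => by
      rw [map_mul, map_mul, hεfix t, hF.1 hd t]; ring
    refine ⟨ε * y * d, ⟨?_, fun t => ?_⟩, fun t ht => ?_⟩
    · have := key b
      rw [hcd, sub_eq_iff_eq_add] at this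
      rw [this, add_comm]
    · rw [key t]
      exact ⟨F.mul_mem (F.mul_mem hεF (hy t)) hd, by rw [← mul_assoc, ← mul_assoc, hεε]⟩
    · exact sub_eq_zero.1 (by rw [key t, ht, sub_self, mul_zero, zero_mul])
  have hε0ne : ε * c0 ≠ 0 := fun h => hεne <| by
    rw [← hεε0, hε0, show q - 1 = (q - 2) + 1 by omega, pow_succ', ← mul_assoc, h, zero_mul]
  obtain ⟨u₀, hu₀, -⟩ := hmk x a (fun t => hF.2 (hlow t)) hε0ne
  let stab : S × A → Set A := fun w => {t | σ t w.1 = w.1}
  obtain ⟨⟨u, b⟩, ⟨hub, hu⟩, humax⟩ := Set.exists_max_image C (fun w => Nat.card {t : A // t ∈ stab w})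
    (Set.toFinite _) ⟨(u₀, a), hu₀⟩
  haveI hchar : CharP S p := (CharP.charP_iff_prime_eq_zero hp.out).2 hpS
  refine ⟨b, ε, u, hεne, hεε, hεfix, hub, fun t => ?_⟩
  set v := u ^ p - u with hv
  have hvt : ∀ s, σ s v - v = (σ s u - u) ^ p - (σ s u - u) := fun s => by
    rw [hv, map_sub, map_pow, sub_pow_char]; ring
  have hvF : ∀ s, σ s v - v ∈ F := fun s => by
    rw [hvt]; exact F.sub_mem (pow_mem (hu s).1 _) (hu s).1
  have hεp : ε ^ p = ε := by
    obtain ⟨n, hn⟩ := Nat.exists_eq_succ_of_ne_zero hp.out.ne_zero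
    rw [hn]
    clear hn
    induction n with
    | zero => simp
    | succ n ih => rw [pow_succ, ih, hεε]
  have hvb : σ b v = v := by
    rw [← sub_eq_zero, hvt, show σ b u - u = ε by rw [hub]; ring, hεp, sub_self]
  by_cases hall : σ t v = v
  · obtain ⟨i, hi⟩ := pow_eq_self_mem ε ⟨q, hq, hS⟩ hεε hεne hpS F hdom (hu t).1 (hu t).2
      (sub_eq_zero.1 (by rw [← hvt, hall, sub_self])) hεF
    have hbpow : ∀ n : ℕ, σ (b ^ n) u = u + n • ε := by
      intro n
      induction n with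
      | zero => simp
      | succ n ih =>
        rw [pow_succ', map_mul]
        show σ b (σ (b ^ n) u) = _
        rw [ih, map_add, map_nsmul, hub, hεfix, succ_nsmul', add_assoc]
    refine ⟨p * i - i, ?_⟩
    rw [map_mul]
    show σ t (σ (b ^ (p * i - i)) u) = u
    rw [hbpow, map_add, map_nsmul, hεfix, sub_eq_iff_eq_add.1 hi, add_assoc, add_comm u, ← add_assoc, ← add_nsmul,
      Nat.add_sub_cancel' (Nat.le_mul_of_pos_left i hp.out.pos), nsmul_eq_mul, Nat.cast_mul, hpS, zero_mul,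
      zero_mul, zero_add]
  · exfalso
    have hne' : ε * (σ t v - v) ≠ 0 := by
      have hεu : ε * (σ t u - u) = σ t u - u := (hu t).2
      have hεv : ε * (σ t v - v) = σ t v - v := by
        rw [hvt, mul_sub, hεu]
        congr 1
        conv_lhs => rw [← hεp, ← mul_pow, hεu]
      rw [hεv]; exact sub_ne_zero.2 hall
    obtain ⟨u', hu', hstab⟩ := hmk v t hvF hne'
    have hsub : ∀ s, σ s u = u → σ s u' = u' := fun s hs =>
      hstab s (by rw [hv, map_sub, map_pow, hs])
    have hlt : Nat.card {s : A // s ∈ stab (u, b)} <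
        Nat.card {s : A // s ∈ stab (u', t)} := by
      simp only [stab, Set.mem_setOf_eq]
      haveI : Finite {s : A // σ s u' = u'} := Subtype.finite
      refine lt_of_le_of_ne (Nat.card_le_card_of_injective (fun s : {s // σ s u = u} => (⟨s.1, hsub s.1 s.2⟩ :
        {s // σ s u' = u'})) (fun s r h => Subtype.ext (congrArg Subtype.val h :))) fun e => ?_
      have hsurj := (Nat.bijective_iff_injective_and_card
        (fun s : {s // σ s u = u} => (⟨s.1, hsub s.1 s.2⟩ : {s // σ s u' = u'}))).2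
        ⟨fun s r h => Subtype.ext (congrArg Subtype.val h :), e⟩
      obtain ⟨⟨s, hs⟩, hse⟩ := hsurj.2 ⟨b, hstab b hvb⟩
      have : s = b := congrArg Subtype.val hse
      rw [this, hub] at hs
      exact hεne (by linear_combination hs)
    exact absurd (humax _ hu') (not_le.2 hlt)

end Ring

end CfsgLib.ZJFive
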